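import Cfsg.Agent.Lib.BdU.Mod

/-!
# Elements normalising `M ≅ U₃(q)`
-/

set_option autoImplicit false
set_option linter.unusedSectionVars false

namespace Cfsg.Agent.BdU

open Cfsg.Agent.AIC Cfsg.Agent.Bd Pt

variable {K G : Type*} [Field K] [CharP K 2] [Group G] {σ : K →+* K} [Invol σ] {M : Subgroup G}
  {q : ℕ}

theorem exists_fixed [Finite K] (hF : FD σ q) {e : K} (he : e * σ e = 1) {p : Pt σ}
    (hp : e * σ p.a = p.a) : ∃ r : Pt σ, p.a + e * σ r.a = r.a ∧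
      p.b + σ r.b + σ p.a * (e * σ r.a) = r.b := by
  obtain ⟨ω, hω⟩ := hF.tr
  have h2 := two0 K
  have hp' : σ e * p.a = σ p.a := by
    have := congrArg σ hp
    rwa [map_mul, σσ] at this
  obtain ⟨k, hk0, hk⟩ : ∃ k : K, k ≠ 0 ∧ e * σ k = k := by
    have key : ∀ y, e * σ (y + e * σ y) = y + e * σ y := fun y => by
      simp only [map_add, map_mul, σσ]; linear_combination y * he
    by_cases h1 : 1 + e * σ 1 = 0
    · refine ⟨_, ?_, key ω⟩
      rw [map_one, mul_one] at h1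
      rw [show e = 1 by linear_combination h1 - h2, one_mul, hω]
      exact one_ne_zero
    · exact ⟨_, h1, key 1⟩
  have hk' : σ e * k = σ k := by
    have := congrArg σ hk
    rwa [map_mul, σσ] at this
  have hσk : σ k ≠ 0 := (map_ne_zero σ).2 hk0
  obtain ⟨β, hβ⟩ : ∃ β, β = ω * σ ω * (p.a * σ p.a) + p.b + σ ω * (p.a * σ p.a) := ⟨_, rfl⟩
  have hβ' : σ β = β := by
    rw [hβ]
    simp only [map_add, map_mul, σσ]
    linear_combination p.hab + p.a * σ p.a * hω + (p.a * σ p.a - p.b - σ ω * (p.a * σ p.a)) * h2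
  obtain ⟨s, hs, hs'⟩ := exists_sqrt (σ := σ) (c := β / (k * σ k)) (by
    rw [map_div₀, hβ', map_mul, σσ, mul_comm])
  have hs2 : s * s * (k * σ k) = β := by rw [hs']; field_simp
  obtain ⟨r, hr⟩ := exists_a hF (ω * p.a + s * k)
  have hr' : σ r.a = σ ω * σ p.a + s * σ k := by rw [hr, map_add, map_mul, map_mul, hs]
  have hab := r.hab
  rw [hr', hr] at hab
  refine ⟨r, ?_, ?_⟩
  · rw [hr', hr]
    linear_combination σ ω * hp + s * hk + p.a * hω + (p.a - ω * p.a) * h2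
  · rw [hr']
    linear_combination σ p.a * σ ω * hp + σ p.a * s * hk + hab + hs2 + hβ
      + s * ω * p.a * hk' * (-1) + s * ω * k * hp' + s * k * σ p.a * hω
      + (ω * σ ω * (p.a * σ p.a) + p.b + σ ω * (p.a * σ p.a) - r.b + s * k * σ p.a) * h2

namespace Mod

variable (μ : Mod σ M) (hF : FD σ q) [Finite K] {g k v : G}

theorem exists_alpha (hg : ∀ p, ∃ r, g * μ.x p * g⁻¹ = μ.x r) :
    ∃ α : Pt σ →* Pt σ, Function.Injective α ∧ ∀ p, g * μ.x p * g⁻¹ = μ.x (α p) := by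
  choose f hf using hg
  refine ⟨MonoidHom.mk' f fun a b => μ.inj ?_, fun a b e => μ.inj ?_, hf⟩
  · rw [map_mul, ← hf, ← hf, ← hf, map_mul]; group
  · have e' : f a = f b := e
    have := (hf a).trans (e' ▸ (hf b).symm)
    simpa using this

theorem h_fix_t {l : K} (hl : l ≠ 0) : Commute (μ.h l * μ.t * (μ.h l)⁻¹) μ.t := by
  rw [t, μ.h_x hl]; exact μ.x_t _

theorem h_fix_u {l : K} (hl : l ≠ 0) : Commute (μ.h l * μ.u * (μ.h l)⁻¹) μ.u := by
  have hσ : (σ l)⁻¹ ≠ 0 := inv_ne_zero ((map_ne_zero σ).2 hl)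
  have h1 := μ.h_fix_t hσ
  rw [← μ.w_h hl, ← commute_conj_iff μ.w⁻¹] at h1
  have e : μ.u = μ.w⁻¹ * μ.t * μ.w⁻¹⁻¹ := by rw [u, inv_inv, μ.w_inv]
  rw [e]
  convert h1 using 1
  group

omit [Finite K] in
theorem fx_inv (h : Commute (g * v * g⁻¹) v) : Commute (g⁻¹ * v * g⁻¹⁻¹) v := by
  rw [← commute_conj_iff g]
  convert h.symm using 1
  group

include μ hF

theorem fx_mul (hv : v ∈ I M) (hg : Nm M g) (hk : Nm M k) (h1 : Commute (g * v * g⁻¹) v)
    (h2 : Commute (k * v * k⁻¹) v) : Commute (g * k * v * (g * k)⁻¹) v := by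
  refine μ.trans hF ((hg.mul hk).I hv) (hg.I hv) hv ?_ h1
  rw [← commute_conj_iff g] at h2
  convert h2 using 1
  group

theorem nmS (hg : Nm M g) (h : Commute (g * μ.t * g⁻¹) μ.t) (p : Pt σ) :
    ∃ r, g * μ.x p * g⁻¹ = μ.x r := by
  have h1 := hg.I μ.t_I
  obtain ⟨r, hr, e⟩ := μ.memZ0 hF h1.1 h1.2.2 h
  refine μ.memS' hF (hg _ (μ.x_mem p)) (k := 2) (by
    rw [conj_pow, ← map_pow, show 2 ^ 2 = 4 from rfl, pow_four, map_one]; group) hr
    (by rintro rfl; exact h1.2.1 (by simpa using e)) ?_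
  rw [← e, conj_eq_of_commute ((commute_conj_iff _ _ _).2 (μ.x_t p))]
  exact h

theorem comm_w (hg : Nm M g) (h1 : Commute g μ.t) (h2 : Commute (g * μ.u * g⁻¹) μ.u) :
    Commute g μ.w := by
  have h3 := (Nm.of_mem (M.inv_mem μ.w_mem)).I (hg.I μ.u_I)
  obtain ⟨r, hr, e⟩ := μ.memZ0 hF h3.1 h3.2.2 (by
    rw [← commute_conj_iff μ.w, ← u]
    convert h2 using 1
    group)
  have hr1 : r ≠ 1 := by rintro rfl; exact h3.2.1 (by simpa using e)
  have e1 : g * μ.u * g⁻¹ = μ.w * μ.x r * μ.w⁻¹ := by rw [← e]; group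
  have hw : μ.w = μ.t * μ.u * μ.t := by
    have := μ.w_z (map_one σ) one_ne_zero
    rw [μ.h_one one_ne_zero (by simp [lam]), mul_one] at this
    simp only [inv_one] at this
    have ht := μ.t_I.2.2
    have e2 : μ.u = μ.t * μ.w * μ.t := this
    rw [e2]
    calc μ.w = μ.t * μ.t * μ.w * (μ.t * μ.t) := by rw [ht]; group
      _ = _ := by group
  have e2 : g * μ.w * g⁻¹ = μ.t * (μ.w * μ.x r * μ.w⁻¹) * μ.t := by
    rw [← e1]
    nth_rewrite 1 [hw]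
    calc _ = g * μ.t * g⁻¹ * (g * μ.u * g⁻¹) * (g * μ.t * g⁻¹) := by group
      _ = _ := by rw [conj_eq_of_commute h1]
  have e3 : g * μ.w * g⁻¹ * μ.t * (g * μ.w * g⁻¹)⁻¹ = g * μ.u * g⁻¹ := by
    nth_rewrite 1 [← conj_eq_of_commute h1]
    rw [u]; group
  have hb := b_ne hr1
  have hc := fix_b hr
  have e4 := μ.w_z hc hb
  rw [← eq_z hr] at e4
  obtain ⟨c', hc'⟩ : ∃ c', c' = t0 * z r.b⁻¹ (by rw [map_inv₀, hc]) := ⟨_, rfl⟩
  have e5 : g * μ.w * g⁻¹ = μ.x c' * μ.w * (μ.x (r * sc (lam σ r.b) t0) * μ.h r.b) := by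
    rw [e2, e4, hc', map_mul, map_mul, ← μ.h_x hb, t]; group
  rw [← e3, e5, t, μ.W_conj_z _ _ hb rfl] at h2
  have hI := μ.x_I (r := sc (lam σ r.b) t0) (by simp) (sc_ne (lam_ne hb) t0_ne)
  have h4 : c' = 1 := μ.runiq0 (μ.trans hF ((Nm.of_mem (μ.x_mem c')).I μ.u_I)
    ((Nm.of_mem (μ.x_mem c')).I ((Nm.of_mem μ.w_mem).I hI)) μ.u_I
    ((commute_conj_iff _ _ _).2 (μ.wz_u (by simp)).symm) h2)
  have h5 : r = t0 := by
    have := congrArg Pt.b (hc'.symm.trans h4)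
    simp only [mul_b, t0_b, z_b, t0_a, z_a, mul_zero, add_zero, one_b] at this
    have h6 : r.b⁻¹ = 1 := by linear_combination this - two0 K
    ext
    · simp [hr]
    · simpa using h6
  apply commute_of_conj_eq
  rw [e2, h5]
  exact hw.symm

variable [Finite G]

theorem conj_h (hg : Nm M g) (h1 : Commute (g * μ.t * g⁻¹) μ.t) (h2 : Commute (g * μ.u * g⁻¹) μ.u)
    {l : K} (hl : l ≠ 0) : ∃ l', l' ≠ 0 ∧ g * μ.h l * g⁻¹ = μ.h l' := by
  have n1 := Nm.of_mem (μ.h_mem hl)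
  have f1 := μ.fx_mul hF μ.t_I (hg.mul n1) hg.inv (μ.fx_mul hF μ.t_I hg n1 h1 (μ.h_fix_t hl))
    (fx_inv h1)
  have f2 := μ.fx_mul hF μ.u_I (hg.mul n1) hg.inv (μ.fx_mul hF μ.u_I hg n1 h2 (μ.h_fix_u hl))
    (fx_inv h2)
  obtain ⟨p, l', hl', e⟩ := μ.memB (hg _ (μ.h_mem hl)) (r := t0) rfl t0_ne f1
  have n2 := Nm.of_mem (μ.h_mem hl')
  have f3 := μ.fx_mul hF μ.u_I ((hg.mul n1).mul hg.inv) n2.inv f2 (fx_inv (μ.h_fix_u hl'))
  rw [e, mul_inv_cancel_right] at f3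
  exact ⟨l', hl', by rw [e, μ.runiq0 f3, map_one, one_mul]⟩

theorem ce (hg : Nm M g) (h1 : ∀ p, Commute g (μ.x p)) (h2 : Commute (g * μ.u * g⁻¹) μ.u) :
    Ce M g := by
  have hw := μ.comm_w hF hg (h1 _) h2
  have hh : ∀ {l}, l ≠ 0 → Commute g (μ.h l) := fun {l} hl => by
    obtain ⟨l', hl', e⟩ := μ.conj_h hF hg (by rw [t, conj_eq_of_commute (h1 _)]) h2 hl
    have h3 : μ.Act (μ.h (l' * l⁻¹)) id := Act.of_comm fun p => by
      rw [← μ.h_mul hl' (inv_ne_zero hl), ← e, ← μ.h_inv hl]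
      apply commute_of_conj_eq
      have h4 := μ.h_x (inv_ne_zero hl) p
      rw [← μ.h_inv hl] at h4
      calc _ = g * μ.h l * (g⁻¹ * ((μ.h l)⁻¹ * μ.x p * (μ.h l)⁻¹⁻¹) * g⁻¹⁻¹) * (μ.h l)⁻¹ * g⁻¹ := by
            group
        _ = g * μ.x p * g⁻¹ := by
            rw [h4, conj_eq_of_commute (h1 _).inv_left, ← h4]; group
        _ = _ := conj_eq_of_commute (h1 p)
    have h0 := mul_ne_zero hl' (inv_ne_zero hl)
    have h4 := μ.act_B 1 h0
    rw [map_one, one_mul] at h4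
    have h5 := μ.h_one h0 (by simpa using h4.uniq hF h3 1)
    rw [← μ.h_mul hl' (inv_ne_zero hl), ← μ.h_inv hl, mul_inv_eq_one] at h5
    exact commute_of_conj_eq (e.trans h5)
  intro m hm
  rcases μ.bruhat hm with ⟨p, l, hl, rfl⟩ | ⟨p, r, l, hl, rfl⟩
  · exact (h1 p).mul_right (hh hl)
  · exact ((h1 p).mul_right hw).mul_right ((h1 r).mul_right (hh hl))

theorem full (hq : 4 ≤ q) (hg : Nm M g) (h1 : Commute (g * μ.t * g⁻¹) μ.t)
    (h2 : Commute (g * μ.u * g⁻¹) μ.u) : ∃ (α : Pt σ →* Pt σ) (e : K) (φ : K ≃+* K), e ≠ 0 ∧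
      (∀ p, g * μ.x p * g⁻¹ = μ.x (α p)) ∧ (∀ p, (α p).a = e * φ p.a) ∧
      ∀ p, (α p).b = e * σ e * φ p.b := by
  obtain ⟨α, hα, hx⟩ := μ.exists_alpha (μ.nmS hF hg h1)
  obtain ⟨e, he, φ, ha, hb⟩ := aut_semilinear hF α hα
  refine ⟨α, e, φ, he, hx, ha, fun p0 => ?_⟩
  have h20 := two0 K
  obtain ⟨l, hl1, hl3⟩ := exists_norm_one hF hq
  have hl : l ≠ 0 := by rintro rfl; simp at hl1
  obtain ⟨l', hl', e1⟩ := μ.conj_h hF hg h1 h2 hl
  have hlam : 1 + lam σ l ≠ 0 := fun h => hl3 (by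
    have := lam_of_norm hl1
    rwa [show lam σ l = 1 by linear_combination h - h20, one_mul] at this)
  have e2 : ∀ p, α (sc (lam σ l) p) = sc (lam σ l') (α p) := fun p => μ.inj (by
    rw [← hx, ← μ.h_x hl, ← μ.h_x hl', ← hx, ← e1]; group)
  have e3 : lam σ l' = φ (lam σ l) := by
    obtain ⟨p, hp⟩ := exists_a hF (1 : K)
    have := congrArg Pt.a (e2 p)
    rw [ha, sc_a, sc_a, ha, hp, mul_one, map_one, mul_one, mul_comm] at this
    exact (mul_right_cancel₀ he this).symm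
  have e4 : lam σ l * σ (lam σ l) = 1 := by rw [lam_norm hl, hl1]
  have e5 : lam σ l' * σ (lam σ l') = 1 := by rw [e3, ← map_σ hF, ← map_mul, e4, map_one]
  have add : ∀ p s : Pt σ, (α (p * s)).b + e * σ e * φ (p * s).b =
      (α p).b + e * σ e * φ p.b + ((α s).b + e * σ e * φ s.b) := fun p s => by
    rw [map_mul, mul_b, mul_b, ha, ha, map_add, map_add, map_mul, map_mul, map_σ hF]
    linear_combination e * σ e * σ (φ p.a) * φ s.a * h20
  obtain ⟨p, hp⟩ := exists_a hF (p0.a / (1 + lam σ l))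
  have h3 := add (p * sc (lam σ l) p) ((p * sc (lam σ l) p)⁻¹ * p0)
  rw [mul_inv_cancel_left, add p, e2, sc_b, sc_b, e4, e5, hb ((p * sc (lam σ l) p)⁻¹ * p0) (by
    rw [mul_a, inv_a, mul_a, sc_a, hp]; field_simp; linear_combination p0.a * h20)] at h3
  simp only [one_mul, CharTwo.add_self_eq_zero, add_zero] at h3
  linear_combination h3 - e * σ e * φ p0.b * h20

theorem decomp (hg : Nm M g) (h1 : Commute (g * μ.t * g⁻¹) μ.t) : ∃ p g0, g = μ.x p * g0 ∧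
    Nm M g0 ∧ Commute (g0 * μ.t * g0⁻¹) μ.t ∧ Commute (g0 * μ.u * g0⁻¹) μ.u := by
  obtain ⟨p, hp⟩ := μ.rex0 hF (hg.I μ.u_I) fun h => μ.nc_tu (by
    rw [← commute_conj_iff g]
    exact μ.trans hF (hg.I μ.t_I) μ.t_I (hg.I μ.u_I) h1 h)
  have n1 := Nm.of_mem (M.inv_mem (μ.x_mem p))
  refine ⟨p, (μ.x p)⁻¹ * g, by group, n1.mul hg, μ.fx_mul hF μ.t_I n1 hg ?_ h1, ?_⟩
  · rw [conj_eq_of_commute (μ.x_t p).inv_left]
  · rw [← commute_conj_iff (μ.x p)]
    convert hp.symm using 1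
    group

theorem as_of_ce {p : Pt σ} {g0 : G} (h : Ce M g0) : As M (μ.x p * g0) (μ.x p) := fun m hm => by
  calc _ = μ.x p * (g0 * m * g0⁻¹) * (μ.x p)⁻¹ := by group
    _ = _ := by rw [conj_eq_of_commute (h m hm)]

theorem dich (hq : 4 ≤ q) (hg : Nm M g) (h1 : Commute (g * μ.t * g⁻¹) μ.t) {c : Pt σ}
    (hc : c.a = 0) (h2 : As M (g * g) (μ.x c)) : (∃ p, As M g (μ.x p) ∧ p * p = c) ∨
      (c = 1 ∧ (∃ e, μ.Act g fun a => e * σ a) ∧ (∀ r, r.a = 0 → Commute g (μ.x r)) ∧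
        ∃ n ∈ M, Commute n g ∧ ¬ Commute (n * μ.t * n⁻¹) μ.t) := by
  obtain ⟨p, g0, rfl, n0, f1, f2⟩ := μ.decomp hF hg h1
  obtain ⟨α, e, φ, he, hx, ha, hb⟩ := μ.full hF hq n0 f1 f2
  have h3 : As M (g0 * g0) (μ.x ((p * α p)⁻¹ * c)) := fun m hm => by
    rw [map_mul, map_inv, map_mul, ← hx]
    calc _ = (μ.x p * (g0 * μ.x p * g0⁻¹))⁻¹ * (μ.x p * g0 * (μ.x p * g0) * m *
          (μ.x p * g0 * (μ.x p * g0))⁻¹) * (μ.x p * (g0 * μ.x p * g0⁻¹)) := by group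
      _ = _ := by rw [h2 m hm]; group
  have h4 : (p * α p)⁻¹ * c = 1 := μ.runiq0 (by
    rw [← h3 _ μ.u_I.1]; exact μ.fx_mul hF μ.u_I n0 n0 f2 f2)
  rw [h4, map_one] at h3
  rw [inv_mul_eq_one] at h4
  have h5 : ∀ r, α (α r) = r := fun r => μ.inj (by
    have := h3 _ (μ.x_mem r)
    rw [← hx, ← hx]
    simpa [mul_assoc] using this)
  have h6 : ∀ a, e * φ e * φ (φ a) = a := fun a => by
    obtain ⟨r, rfl⟩ := exists_a hF a
    have := congrArg Pt.a (h5 r)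
    rwa [ha, ha, map_mul, ← mul_assoc] at this
  have h7 : e * φ e = 1 := by simpa using h6 1
  rcases eq_one_or_σ hF (φ := φ) (RingEquiv.ext fun a => by
    have := h6 a; rwa [h7, one_mul] at this) with rfl | rfl
  · left
    have h8 : e = 1 := eq_one_of_pow2 (k := 1) (by rw [pow_one, pow_two]; exact h7)
    have h9 : ∀ r, α r = r := fun r => Pt.ext (by rw [ha, h8]; simp) (by rw [hb, h8]; simp)
    refine ⟨p, μ.as_of_ce hF (μ.ce hF n0 (fun r => commute_of_conj_eq ?_) f2), by rw [← h4, h9]⟩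
    rw [hx, h9]
  · right
    simp only [σe_apply] at ha hb h7
    simp only [h7, one_mul] at hb
    have h20 := two0 K
    have h8 : e * σ p.a = p.a := by
      have := congrArg Pt.a h4
      rw [mul_a, ha, hc] at this
      linear_combination this - p.a * h20
    have h9 : ∀ r : Pt σ, r.a = 0 → Commute g0 (μ.x r) := fun r hr => commute_of_conj_eq (by
      rw [hx]; congr 1
      exact Pt.ext (by rw [ha, hr]; simp) (by rw [hb, fix_b hr]))
    refine ⟨?_, ⟨e, (μ.act_x p).mul fun r => ⟨_, hx r, ha r⟩⟩,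
      fun r hr => (μ.x_comm hr p).mul_left (h9 r hr), ?_⟩
    · rw [← h4]
      ext
      · rw [h4, hc, one_a]
      · rw [mul_b, ha, hb, h8, one_b]
        linear_combination p.hab + p.a * σ p.a * h20
    · obtain ⟨r, hr1, hr2⟩ := exists_fixed hF h7 h8
      have e1 : p * α r = r := Pt.ext (by rw [mul_a, ha, hr1]) (by rw [mul_b, ha, hb, hr2])
      have e2 : μ.x p * g0 = μ.x r * g0 * (μ.x r)⁻¹ := by
        nth_rewrite 1 [← e1]
        rw [map_mul, ← hx]; group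
      refine ⟨μ.x r * μ.w * (μ.x r)⁻¹, Nm.of_mem (μ.x_mem r) _ μ.w_mem, ?_, fun h => μ.nc_tu ?_⟩
      · rw [e2, commute_conj_iff]
        exact (μ.comm_w hF n0 (h9 _ rfl) f2).symm
      · rw [← commute_conj_iff (μ.x r), conj_eq_of_commute (μ.x_t r)]
        convert h.symm using 1
        nth_rewrite 1 [← conj_eq_of_commute (μ.x_t r)]
        rw [u]; group

end Mod

end Cfsg.Agent.BdU
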