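import Mathlib

/-!
# Automorphisms of finite fields of characteristic two
-/

set_option autoImplicit false

namespace Cfsg.Agent.BdU

variable {E : Type*} [Field E] [Finite E] [CharP E 2]

theorem isCyclic_aut : IsCyclic (E ≃+* E) := by
  let _ : Algebra (ZMod 2) E := ZMod.algebra E 2
  let f : (E ≃ₐ[ZMod 2] E) →* (E ≃+* E) :=
    { toFun := fun φ => φ.toRingEquiv, map_one' := rfl, map_mul' := fun _ _ => rfl }
  refine isCyclic_of_surjective f fun φ => ⟨AlgEquiv.ofRingEquiv (f := φ) fun x => ?_, rfl⟩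
  exact RingHom.congr_fun
    (Subsingleton.elim (φ.toRingHom.comp (algebraMap (ZMod 2) E)) (algebraMap (ZMod 2) E)) x

theorem aut_comm (φ ψ : E ≃+* E) : φ * ψ = ψ * φ := by
  have := isCyclic_aut (E := E)
  obtain ⟨g, hg⟩ := IsCyclic.exists_generator (α := E ≃+* E)
  obtain ⟨a, rfl⟩ := hg φ
  obtain ⟨b, rfl⟩ := hg ψ
  exact (Commute.zpow_zpow_self g a b).eq

/-- The involution of a finite field is unique. -/
theorem aut_invol_eq {φ ψ : E ≃+* E} (h1 : φ * φ = 1) (h2 : ψ * ψ = 1) (h3 : φ ≠ 1)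
    (h4 : ψ ≠ 1) : φ = ψ := by
  classical
  have := isCyclic_aut (E := E)
  have : Finite (E ≃+* E) := Finite.of_injective (fun φ : E ≃+* E => (φ : E → E))
    DFunLike.coe_injective
  have := Fintype.ofFinite (E ≃+* E)
  by_contra hne
  have h5 := IsCyclic.card_pow_eq_one_le (α := E ≃+* E) (n := 2) (by norm_num)
  have h6 : ({1, φ, ψ} : Finset (E ≃+* E)) ⊆ Finset.univ.filter fun a => a ^ 2 = 1 := by
    intro a ha
    simp only [Finset.mem_insert, Finset.mem_singleton] at ha
    rcases ha with rfl | rfl | rfl <;> simp [pow_two, h1, h2]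
  have h7 := Finset.card_le_card h6
  rw [Finset.card_eq_three.2 ⟨1, φ, ψ, h3.symm, h4.symm, hne, rfl⟩] at h7
  omega

theorem lin_arith {q v k r d : ℕ} (hc : q = r ^ d) (hl : q = k * v) (hq : k ≤ d + 1) (hvr : v ≤ r)
    (hv2 : 2 ≤ v) (hq2 : 2 ≤ k) (he : q % 2 = 0) : q = 2 * v ∨ (q = 8 ∧ v = 2) := by
  have hd : r ^ d ≤ (d + 1) * r := by
    rw [← hc, hl]; exact Nat.mul_le_mul hq hvr
  have hr2 : 2 ≤ r := hv2.trans hvr
  rcases d with _ | d
  · omega
  have h3 : r ^ d ≤ d + 2 := by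
    rw [pow_succ] at hd
    exact Nat.le_of_mul_le_mul_right hd (by omega)
  rcases d with _ | _ | _ | d
  · left; rw [hl]; congr 1; omega
  · have h4 : r ≤ 3 := by simpa using h3
    have h5 : k ≤ 3 := hq
    have h8 : k * v = r * r := by rw [← hl, hc]; ring
    rw [hl] at he ⊢
    clear hc hl hd h3
    have h6 : r = 2 ∨ r = 3 := by omega
    have h7 : k = 2 ∨ k = 3 := by omega
    rcases h6 with rfl | rfl <;> rcases h7 with rfl | rfl <;> omega
  · have h4 : r * r ≤ 4 := by simpa [pow_two] using h3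
    have : r = 2 := by nlinarith
    subst this
    right; omega
  · exfalso
    have h2 : 2 ^ (d + 3) ≤ r ^ (d + 3) := Nat.pow_le_pow_left hr2 _
    have h4 : d < 2 ^ d := Nat.lt_two_pow_self
    have h5 : r ^ (d + 3) ≤ d + 5 := h3
    rw [pow_add 2] at h2
    omega

/-- The counting argument for the axiom `lin`. -/
theorem lin_field (V : AddSubgroup E) (h1 : (1 : E) ∈ V) (hV : V ≠ ⊤)
    (h : ∀ z ∉ V, ∀ z' ∉ V, ∃ φ : E →+* E, (∀ v ∈ V, φ v = v) ∧ φ z - z' ∈ V) :
    Nat.card E = 2 * Nat.card V ∨ (Nat.card E = 8 ∧ Nat.card V = 2) := by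
  classical
  let Γ : Subgroup (E ≃+* E) :=
    { carrier := {φ | ∀ v ∈ V, φ v = v}
      mul_mem' := fun {a b} ha hb v hv => by
        show a (b v) = v
        rw [hb v hv, ha v hv]
      one_mem' := fun _ _ => rfl
      inv_mem' := fun {a} ha v hv => by
        show a.symm v = v
        rw [RingEquiv.symm_apply_eq, ha v hv] }
  have : Finite (E ≃+* E) := Finite.of_injective (fun φ : E ≃+* E => (φ : E → E))
    DFunLike.coe_injective
  have := Fintype.ofFinite Γ
  have := Fintype.ofFinite E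
  have hr := FixedPoints.finrank_eq_card Γ E
  have := Fintype.ofFinite (FixedPoints.subfield Γ E)
  have hc := Module.card_eq_pow_finrank (K := FixedPoints.subfield Γ E) (V := E)
  rw [hr, ← Nat.card_eq_fintype_card, ← Nat.card_eq_fintype_card] at hc
  have hvr : Nat.card V ≤ Nat.card (FixedPoints.subfield Γ E) :=
    Nat.card_le_card_of_injective (fun v : V => (⟨v.1, fun φ => φ.2 v.1 v.2⟩ :
      FixedPoints.subfield Γ E)) fun a b e =>
        Subtype.ext (congrArg (fun y : FixedPoints.subfield Γ E => (y : E)) e)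
  obtain ⟨z, hz⟩ : ∃ z, z ∉ V := by
    by_contra hc
    push Not at hc
    exact hV (eq_top_iff.2 fun z _ => hc z)
  have hq : Nat.card (E ⧸ V) ≤ Fintype.card Γ + 1 := by
    rw [← Fintype.card_option, ← Nat.card_eq_fintype_card]
    refine Nat.card_le_card_of_surjective
      (fun o : Option Γ => o.elim 0 fun φ => ((φ.1 z : E) : E ⧸ V)) fun c => ?_
    obtain ⟨z', rfl⟩ := QuotientAddGroup.mk_surjective c
    by_cases hz' : z' ∈ V
    · exact ⟨none, ((QuotientAddGroup.eq_zero_iff _).2 hz').symm⟩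
    · obtain ⟨φ, h2, h3⟩ := h z hz z' hz'
      refine ⟨some ⟨RingEquiv.ofBijective φ
        (Finite.injective_iff_bijective.1 φ.injective), h2⟩, ?_⟩
      exact QuotientAddGroup.eq_iff_sub_mem.2 h3
  have hl := AddSubgroup.card_eq_card_quotient_mul_card_addSubgroup V
  have hv2 : 2 ≤ Nat.card V := by
    have : Nontrivial V := ⟨⟨0, ⟨1, h1⟩, fun e => zero_ne_one (congrArg Subtype.val e)⟩⟩
    exact Finite.one_lt_card
  have hq2 : 2 ≤ Nat.card (E ⧸ V) := by
    have : Nontrivial (E ⧸ V) := ⟨⟨0, z, fun e => hz ((QuotientAddGroup.eq_zero_iff _).1 e.symm)⟩⟩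
    exact Finite.one_lt_card
  exact lin_arith hc hl hq hvr hv2 hq2 (by
    rw [Nat.card_eq_fintype_card]
    exact FiniteField.even_card_of_char_two (ringChar.eq E 2))

end Cfsg.Agent.BdU
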