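import Cfsg.Agent.Lib.BdU.Aut

/-!
# The local axioms for the model of `U₃(q)`
-/

set_option autoImplicit false
set_option linter.unusedSectionVars false

namespace Cfsg.Agent.BdU

open Cfsg.Agent.AIC Cfsg.Agent.Bd Pt

variable {K G : Type*} [Field K] [CharP K 2] [Group G] {σ : K →+* K} [Invol σ] {M : Subgroup G}
  {q : ℕ}

namespace Mod

variable (μ : Mod σ M) (hF : FD σ q) [Finite K] {g k v : G}
include hF

theorem nm_iff : Nm (SS M μ.t) g ↔ ∀ p, ∃ r, g * μ.x p * g⁻¹ = μ.x r :=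
  ⟨fun h p => (μ.mem_SS hF).1 (h _ (μ.x_SS hF p)), fun h s hs => by
    obtain ⟨p, rfl⟩ := (μ.mem_SS hF).1 hs
    exact (μ.mem_SS hF).2 (h p)⟩

theorem ceZ_iff : Ce (ZZ M μ.t) g ↔ ∀ c hc, Commute g (μ.x (z c hc)) :=
  ⟨fun h c hc => h _ (μ.x_ZZ hF rfl), fun h s hs => by
    obtain ⟨p, hp, rfl⟩ := (μ.mem_ZZ hF).1 hs
    rw [eq_z hp]; exact h _ _⟩

theorem tr_iff : Tr M μ.t g ↔ μ.Act g id := by
  constructor
  · intro h p
    obtain ⟨r, hr, e⟩ := (μ.mem_ZZ hF).1 (h _ (μ.x_SS hF p))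
    exact ⟨r * p, by rw [map_mul, ← e]; group, by simp [hr]⟩
  · intro h s hs
    obtain ⟨p, rfl⟩ := (μ.mem_SS hF).1 hs
    obtain ⟨r, e, hr⟩ := h p
    rw [e, ← map_inv, ← map_mul]
    exact μ.x_ZZ hF (by simp [hr, CharTwo.add_self_eq_zero])

theorem actZ (hg : ∀ p, ∃ r, g * μ.x p * g⁻¹ = μ.x r) : ∃ (e : K) (φ : K ≃+* K), e ≠ 0 ∧
    μ.Act g (fun a => e * φ a) ∧
      ∀ c hc, ∃ hc', g * μ.x (z c hc) * g⁻¹ = μ.x (z (e * σ e * φ c) hc') := by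
  obtain ⟨α, hα, hx⟩ := μ.exists_alpha hg
  obtain ⟨e, he, φ, ha, hb⟩ := aut_semilinear hF α hα
  refine ⟨e, φ, he, fun p => ⟨_, hx p, ha p⟩, fun c hc => ⟨?_, ?_⟩⟩
  · rw [map_mul, map_mul, σσ, ← map_σ hF, hc, mul_comm e]
  · rw [hx]; congr 1
    exact Pt.ext (by simp [ha]) (hb _ rfl)

theorem actZ1 (hg : ∀ p, ∃ r, g * μ.x p * g⁻¹ = μ.x r) (ht : Commute g μ.t) :
    ∃ (e : K) (φ : K ≃+* K), μ.Act g (fun a => e * φ a) ∧
      ∀ c hc, ∃ hc', g * μ.x (z c hc) * g⁻¹ = μ.x (z (φ c) hc') := by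
  obtain ⟨e, φ, -, h1, h2⟩ := μ.actZ hF hg
  obtain ⟨hc, h3⟩ := h2 1 (map_one σ)
  have h4 := congrArg Pt.b (μ.inj ((conj_eq_of_commute ht).symm.trans h3))
  simp only [t0_b, z_b, map_one, mul_one] at h4
  simp only [← h4, one_mul] at h2
  exact ⟨e, φ, h1, h2⟩

theorem lin {V : Subgroup G} (h1 : V ≤ ZZ M μ.t) (h2 : μ.t ∈ V) (h3 : V ≠ ZZ M μ.t)
    (h4 : ∀ y ∈ ZZ M μ.t, y ∉ V → ∀ y' ∈ ZZ M μ.t, y' ∉ V →
      ∃ g, Nm M g ∧ Ce V g ∧ g * y * g⁻¹ * y' ∈ V) :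
    q = 2 * Nat.card V ∨ (q = 8 ∧ Nat.card V = 2) := by
  let E : Subfield K := σ.eqLocusField (RingHom.id K)
  have zadd : ∀ a b : E, μ.x (z (a + b : E) (a + b).2) = μ.x (z a a.2) * μ.x (z b b.2) :=
    fun a b => by
      rw [← map_mul]
      exact congrArg μ.x (Pt.ext (zero_add _).symm (by
        show (a : K) + b = a + b + σ 0 * 0
        rw [mul_zero, add_zero]))
  let V0 : AddSubgroup E :=
    { carrier := {c | μ.x (z c c.2) ∈ V}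
      add_mem' := fun {a b} ha hb => by
        show μ.x _ ∈ V
        rw [zadd]; exact V.mul_mem ha hb
      zero_mem' := by
        show μ.x 1 ∈ V
        rw [map_one]; exact V.one_mem
      neg_mem' := fun {a} ha => by rw [CharTwo.neg_eq]; exact ha }
  have c1 : Nat.card E = q := hF.cardF
  have c2 : Nat.card V0 = Nat.card V := by
    refine Nat.card_congr (Equiv.ofBijective (fun c => ⟨μ.x (z c.1 c.1.2), c.2⟩)
      ⟨fun a b e => ?_, fun y => ?_⟩)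
    · exact Subtype.ext (Subtype.ext (congrArg Pt.b (μ.inj (congrArg Subtype.val e))))
    · obtain ⟨p, hp, e⟩ := (μ.mem_ZZ hF).1 (h1 y.2)
      rw [eq_z hp] at e
      exact ⟨⟨⟨p.b, fix_b hp⟩, (e ▸ y.2 : μ.x (z p.b _) ∈ V)⟩, Subtype.ext e.symm⟩
  rw [← c1, ← c2]
  refine lin_field V0 h2 (fun e => h3 (le_antisymm h1 fun y hy => ?_)) fun c hc c' hc' => ?_
  · obtain ⟨p, hp, rfl⟩ := (μ.mem_ZZ hF).1 hy
    rw [eq_z hp]
    exact (e ▸ AddSubgroup.mem_top _ : (⟨p.b, fix_b hp⟩ : E) ∈ V0)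
  · obtain ⟨g, n1, n2, n3⟩ := h4 _ (μ.x_ZZ hF rfl) hc _ (μ.x_ZZ hF rfl) hc'
    have ht := n2 _ h2
    obtain ⟨e, φ, -, h5⟩ := μ.actZ1 hF (μ.nmS hF n1 (by rw [conj_eq_of_commute ht])) ht
    refine ⟨φ.toRingHom.restrict E E fun a ha => (h5 a ha).1, fun a ha => ?_, ?_⟩
    · obtain ⟨_, h6⟩ := h5 a a.2
      rw [conj_eq_of_commute (n2 _ ha)] at h6
      exact Subtype.ext (congrArg Pt.b (μ.inj h6)).symm
    · obtain ⟨_, h6⟩ := h5 c c.2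
      rw [h6] at n3
      rw [CharTwo.sub_eq_add]
      show μ.x _ ∈ V
      rw [zadd]; exact n3

theorem same {a b : G} (ha : Nm M a) (hb : Nm M b) (h1 : Commute a μ.t) (h2 : Commute b μ.t)
    (h3 : Ce (ZZ M μ.t) (a * a)) (h4 : Ce (ZZ M μ.t) (b * b)) (h5 : ¬ Ce (ZZ M μ.t) a)
    (h6 : ¬ Ce (ZZ M μ.t) b) : As (ZZ M μ.t) a b := by
  have key : ∀ {a : G}, Nm M a → Commute a μ.t → Ce (ZZ M μ.t) (a * a) → ¬ Ce (ZZ M μ.t) a →
      ∃ φ : K ≃+* K, φ * φ = σe σ ∧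
        ∀ c hc, ∃ hc', a * μ.x (z c hc) * a⁻¹ = μ.x (z (φ c) hc') := by
    intro a ha h1 h3 h5
    obtain ⟨e, φ, -, h7⟩ := μ.actZ1 hF (μ.nmS hF ha (by rw [conj_eq_of_commute h1])) h1
    refine ⟨φ, (eq_one_or_σ_of_fix hF fun c hc => ?_).resolve_left fun h8 => h5 ?_, h7⟩
    · obtain ⟨hc', e1⟩ := h7 c hc
      obtain ⟨_, e2⟩ := h7 _ hc'
      have e3 := conj_eq_of_commute ((μ.ceZ_iff hF).1 h3 c hc)
      rw [← e1, show a * (a * μ.x (z c hc) * a⁻¹) * a⁻¹ = a * a * μ.x (z c hc) * (a * a)⁻¹ by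
        group, e3] at e2
      exact (congrArg Pt.b (μ.inj e2)).symm
    · refine (μ.ceZ_iff hF).2 fun c hc => commute_of_conj_eq ?_
      obtain ⟨_, e1⟩ := h7 c hc
      rw [e1]; congr 1
      rcases eq_one_or_σ hF h8 with rfl | rfl
      · rfl
      · ext <;> simp [hc]
  obtain ⟨φ, k1, k2⟩ := key ha h1 h3 h5
  obtain ⟨ψ, k3, k4⟩ := key hb h2 h4 h6
  intro s hs
  obtain ⟨p, hp, rfl⟩ := (μ.mem_ZZ hF).1 hs
  rw [eq_z hp]
  obtain ⟨_, e1⟩ := k2 _ (fix_b hp)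
  obtain ⟨hc, e2⟩ := k4 _ (fix_b hp)
  rw [e1, e2]
  have k5 : φ * ψ⁻¹ * (φ * ψ⁻¹) = 1 := by
    calc _ = φ * (ψ⁻¹ * φ) * ψ⁻¹ := by group
      _ = φ * φ * (ψ * ψ)⁻¹ := by rw [aut_comm ψ⁻¹ φ]; group
      _ = 1 := by rw [k1, k3, mul_inv_cancel]
  have k6 : φ p.b = (φ * ψ⁻¹) (ψ p.b) := by
    show _ = (φ * ψ⁻¹ * ψ) p.b
    rw [inv_mul_cancel_right]
  congr 1
  rcases eq_one_or_σ hF k5 with e | e <;> rw [e] at k6
  · exact Pt.ext rfl k6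
  · exact Pt.ext rfl (k6.trans hc)

theorem su1 {a : G} (ha : Nm (SS M μ.t) a) (h : a * a = 1) : Ce (ZZ M μ.t) a := by
  obtain ⟨e, φ, -, h1, h2⟩ := μ.actZ hF ((μ.nm_iff hF).1 ha)
  have h3 := h1.mul h1
  rw [h] at h3
  have h4 := h3.uniq hF (Act.of_comm fun _ => Commute.one_left _)
  have h5 : e * φ e = 1 := by simpa using h4 1
  have h6 : φ * φ = 1 := RingEquiv.ext fun y => by
    have := h4 y
    rwa [map_mul, ← mul_assoc, h5, one_mul] at this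
  refine (μ.ceZ_iff hF).2 fun c hc => commute_of_conj_eq ?_
  obtain ⟨_, e1⟩ := h2 c hc
  rw [e1]; congr 1
  rcases eq_one_or_σ hF h6 with rfl | rfl
  · have h8 : e = 1 := eq_one_of_pow2 (k := 1) (by rw [pow_one, pow_two]; exact h5)
    ext <;> simp [h8]
  · rw [σe_apply] at h5
    ext <;> simp [hc, h5]

theorem su2 {a b : G} (ha : Nm (SS M μ.t) a) (hb : Nm (SS M μ.t) b) (h1 : Ce (ZZ M μ.t) a)
    (h2 : Ce (ZZ M μ.t) b) (h3 : a ^ 4 = 1) (h4 : b ^ 4 = 1) (h5 : (a * b) ^ 4 = 1) :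
    Tr M μ.t a ∨ Tr M μ.t b ∨ Tr M μ.t (a * b) := by
  have k1 : ∀ {a : G} {e : K}, μ.Act a (e * ·) → a ^ 4 = 1 → Tr M μ.t a := fun {a e} h h' => by
    have := h.eq_one hF (k := 2) (by
      rw [show 2 ^ 2 = 4 from rfl, h']; exact Act.of_comm fun _ => Commute.one_left _)
    rw [μ.tr_iff hF]
    exact fun p => by simpa [this] using h p
  have k2 : ∀ {a : G}, Nm (SS M μ.t) a → Ce (ZZ M μ.t) a → a ^ 4 = 1 →
      Tr M μ.t a ∨ ∃ e, μ.Act a fun y => e * σ y := fun {a} ha h1 h3 => by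
    obtain ⟨e, φ, h6, h7⟩ := μ.actZ1 hF ((μ.nm_iff hF).1 ha) ((μ.ceZ_iff hF).1 h1 _ _)
    rcases eq_one_or_σ_of_fix hF (φ := φ) (fun c hc => by
      obtain ⟨_, e1⟩ := h7 c hc
      rw [conj_eq_of_commute ((μ.ceZ_iff hF).1 h1 _ _)] at e1
      exact (congrArg Pt.b (μ.inj e1)).symm) with rfl | rfl
    · exact Or.inl (k1 h6 h3)
    · exact Or.inr ⟨e, h6⟩
  rcases k2 ha h1 h3 with h | ⟨e, h⟩
  · exact Or.inl h
  rcases k2 hb h2 h4 with h' | ⟨e', h'⟩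
  · exact Or.inr (Or.inl h')
  refine Or.inr (Or.inr (k1 (e := e * σ e') ?_ h5))
  simpa [mul_assoc] using h.mul h'

theorem exists_sq {c : K} (hc : σ c = c) : ∃ p : Pt σ, p * p = z c hc := by
  obtain ⟨s, hs, e⟩ := exists_sqrt hc
  obtain ⟨p, rfl⟩ := exists_a hF s
  exact ⟨p, Pt.ext (sq_a p) (by rw [sq_b, hs, e, z_b])⟩

theorem c4 {p : Pt σ} (hp : p.a ≠ 0) (hg : g ∈ M) (h : Commute g (μ.x p)) : ∃ r, g = μ.x r := by
  obtain ⟨r, l, hl, rfl⟩ := μ.memB hg (sq_a p) (fun e => hp (mul_self_iff.1 e)) (by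
    rw [map_mul, conj_eq_of_commute (h.mul_right h), ← map_mul]; exact μ.x_t _)
  have := congrArg Pt.a (μ.inj ((μ.B_conj r hl p).symm.trans (conj_eq_of_commute h)))
  rw [conj_a, sc_a] at this
  exact ⟨r, by rw [μ.h_one hl (mul_eq_right₀ hp |>.1 this), mul_one]⟩

theorem cS (hg : g ∈ M) (h : ∀ p, Commute g (μ.x p)) : ∃ r, r.a = 0 ∧ g = μ.x r := by
  obtain ⟨p, hp⟩ := exists_a hF (1 : K)
  obtain ⟨r, rfl⟩ := μ.c4 hF (p := p) (by rw [hp]; exact one_ne_zero) hg (h p)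
  refine ⟨r, ?_, rfl⟩
  obtain ⟨ω, hω⟩ := hF.tr
  obtain ⟨s, hs⟩ := exists_a hF (ω * r.a)
  have h1 := conj_eq_of_commute (h s)
  rw [← map_inv, ← map_mul, ← map_mul] at h1
  have h2 := congrArg Pt.b (μ.inj h1)
  rw [conj_b, hs, map_mul] at h2
  have h3 : r.a * σ r.a = 0 := by linear_combination h2 - r.a * σ r.a * hω
  simpa using h3

theorem gen {L : Subgroup G} (hZ : ZZ M μ.t ≤ L) (hu : μ.u ∈ L) {s : Pt σ} (hs : s.a ≠ 0)
    (hsL : μ.x s ∈ L) (hv : v ∈ I M) : v ∈ L := by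
  have h20 := two0 K
  have hz : ∀ {p : Pt σ}, p.a = 0 → μ.x p ∈ L := fun hp => hZ (μ.x_ZZ hF hp)
  have hw : μ.w ∈ L := by
    have := μ.w_z (map_one σ) one_ne_zero
    rw [μ.h_one one_ne_zero (by simp [lam]), mul_one] at this
    have e2 : μ.u = _ := this
    rw [e2] at hu
    exact (L.mul_mem_cancel_left (hz rfl)).1 ((L.mul_mem_cancel_right (hz rfl)).1 hu)
  have hh : ∀ {c : K}, σ c = c → c ≠ 0 → μ.h c ∈ L := fun {c} hc h0 => by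
    have h1 := L.mul_mem (L.mul_mem hw (hz (p := z c hc) rfl)) (L.inv_mem hw)
    rw [μ.w_z hc h0] at h1
    exact (L.mul_mem_cancel_left (hz rfl)).1
      ((L.mul_mem_cancel_left (L.mul_mem (hz rfl) hw)).1 h1)
  have pI : ∀ p, μ.x p * μ.u * (μ.x p)⁻¹ ∈ I M := fun p => (Nm.of_mem (μ.x_mem p)).I μ.u_I
  let O : Pt σ → Prop := fun p => ∃ k ∈ L, k ∈ M ∧
    Commute (k * μ.t * k⁻¹) (μ.x p * μ.u * (μ.x p)⁻¹)
  have mv : ∀ {p p' : Pt σ} {k : G}, k ∈ L → k ∈ M →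
      Commute (k * (μ.x p * μ.u * (μ.x p)⁻¹) * k⁻¹) (μ.x p' * μ.u * (μ.x p')⁻¹) → O p → O p' := by
    rintro p p' k h1 h2 h3 ⟨k', h4, h5, h6⟩
    refine ⟨k * k', L.mul_mem h1 h4, M.mul_mem h2 h5, μ.trans hF
      ((Nm.of_mem (M.mul_mem h2 h5)).I μ.t_I) ((Nm.of_mem h2).I (pI p)) (pI p') ?_ h3⟩
    rw [← commute_conj_iff k] at h6
    convert h6 using 1
    group
  have mx : ∀ {p r : Pt σ}, μ.x r ∈ L → O p → O (r * p) := fun {p r} hr =>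
    mv hr (μ.x_mem r) (by rw [map_mul]; convert Commute.refl _ using 1; group)
  have mh : ∀ {p : Pt σ} {c : K}, σ c = c → c ≠ 0 → O p → O (sc c p) := fun {p c} hc h0 =>
    mv (hh hc h0) (μ.h_mem h0) (by
      have h1 := μ.h_x h0 p
      rw [lam_fix h0 hc] at h1
      have h2 := (commute_conj_iff (μ.x (sc c p)) _ _).2 (μ.h_fix_u h0)
      convert h2 using 1
      rw [← h1]; group)
  have mw : ∀ {p : Pt σ}, p ≠ 1 → O p → ∃ p', p'.a * p.b = p.a ∧ O p' := fun {p} hp ho => by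
    obtain ⟨p', r, h1, h2, h3, h4⟩ := exists_winv hp
    refine ⟨p', h1, mv hw μ.w_mem ?_ ho⟩
    have e : μ.w * (μ.x p * μ.u * (μ.x p)⁻¹) * μ.w⁻¹ =
        μ.w * μ.x p * μ.w⁻¹ * μ.t * (μ.w * μ.x p * μ.w⁻¹)⁻¹ := by
      rw [show μ.u = μ.w⁻¹ * μ.t * μ.w⁻¹⁻¹ by rw [u, inv_inv, μ.w_inv]]
      group
    rw [e, μ.w_x h1 h2 h3 h4, t, μ.W_conj_z _ _ (b_ne hp) rfl, commute_conj_iff]
    exact μ.wz_u (by simp)
  have o1 : O 1 := ⟨μ.w, hw, μ.w_mem, by simp [u]⟩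
  have oa : ∀ {p p' : Pt σ}, p.a = p'.a → O p → O p' := fun {p p'} e ho => by
    have := mx (r := p' * p⁻¹) (hz (by simp [e, CharTwo.add_self_eq_zero])) ho
    rwa [inv_mul_cancel_right] at this
  have os : O s := by simpa using mx hsL o1
  have oall : ∀ p, O p := fun p => by
    by_cases hp : p.a = 0
    · exact oa (by rw [hp, one_a]) o1
    obtain ⟨y, hy⟩ : ∃ y, y = s.a / p.a := ⟨_, rfl⟩
    have hy0 : y ≠ 0 := hy ▸ div_ne_zero hs hp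
    by_cases h1 : σ y = y
    · refine oa ?_ (mh (c := y⁻¹) (by rw [map_inv₀, h1]) (inv_ne_zero hy0) os)
      rw [sc_a, hy]; field_simp
    · have h2 : y + σ y ≠ 0 := fun e => h1 (by linear_combination e - y * h20)
      obtain ⟨c, hc⟩ : ∃ c, c = s.a * σ s.a / (y + σ y) := ⟨_, rfl⟩
      have hc0 : c ≠ 0 := hc ▸ div_ne_zero (mul_ne_zero hs ((map_ne_zero σ).2 hs)) h2
      have hc1 : σ c = c := by rw [hc, map_div₀, map_mul, map_add, σσ, σσ, mul_comm, add_comm]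
      obtain ⟨s', hs1, hs2⟩ : ∃ s' : Pt σ, s'.a = s.a ∧ s'.b = c * y :=
        ⟨⟨s.a, c * y, by rw [map_mul, hc1, hc]; field_simp⟩, rfl, rfl⟩
      obtain ⟨p', h3, o3⟩ := mw (p := s') (fun e => hs (by rw [← hs1, e, one_a])) (oa hs1.symm os)
      refine oa ?_ (mh hc1 hc0 o3)
      rw [hs1, hs2, hy] at h3
      rw [sc_a]
      field_simp at h3
      linear_combination h3
  by_cases h : Commute μ.t v
  · obtain ⟨p, hp, rfl⟩ := μ.memZ0 hF hv.1 hv.2.2 h.symm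
    exact hz hp
  · obtain ⟨p, hp⟩ := μ.rex0 hF hv h
    obtain ⟨k, h1, h2, h3⟩ := oall p
    have h4 := μ.trans hF ((Nm.of_mem h2).I μ.t_I) (pI p) hv h3 hp
    have h5 := (Nm.of_mem (M.inv_mem h2)).I hv
    obtain ⟨r, hr, e⟩ := μ.memZ0 hF h5.1 h5.2.2 (by
      rw [← commute_conj_iff k]
      convert h4.symm using 1
      group)
    have := L.mul_mem (L.mul_mem h1 (hz hr)) (L.inv_mem h1)
    rw [← e] at this
    convert this using 1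
    group

theorem h_comm {l : K} (hl : l * σ l = 1) : Commute (μ.h l) μ.t := by
  have h0 : l ≠ 0 := by rintro rfl; simp at hl
  apply commute_of_conj_eq
  rw [t, μ.h_x h0]
  congr 1
  ext
  · simp
  · simp [lam_norm h0, hl]

theorem cC4 (hq : q = 4) : Nat.card ↥(M ⊓ Subgroup.centralizer {μ.t}) = 320 := by
  have c1 := Pt.card hF
  have c2 := hF.cardN
  rw [hq] at c1 c2
  rw [show 320 = 4 ^ 3 * (4 + 1) by norm_num, ← c1, ← c2, ← Nat.card_prod]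
  have ne : ∀ l : {x : K // x * σ x = 1}, l.1 ≠ 0 := fun l e => by simpa [e] using l.2
  refine (Nat.card_congr (Equiv.ofBijective (fun y : Pt σ × {x : K // x * σ x = 1} =>
    (⟨μ.x y.1 * μ.h y.2, M.mul_mem (μ.x_mem _) (μ.h_mem (ne _)),
      mem_T.2 ((μ.x_t _).mul_left (μ.h_comm hF y.2.2))⟩ :
        ↥(M ⊓ Subgroup.centralizer {μ.t}))) ⟨fun a b e => ?_, fun y => ?_⟩)).symm
  · have e1 : μ.x a.1 * μ.h a.2 = μ.x b.1 * μ.h b.2 := congrArg Subtype.val e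
    have h1 := (μ.act_B a.1 (ne a.2)).uniq hF (e1 ▸ μ.act_B b.1 (ne b.2)) 1
    simp only [mul_one] at h1
    have h2 : a.2.1 ^ 3 = b.2.1 ^ 3 := mul_left_cancel₀ (lam_ne (σ := σ) (ne a.2)) (by
      rw [lam_of_norm a.2.2, h1, lam_of_norm b.2.2])
    have h3 : ∀ l : {x : K // x * σ x = 1}, l.1 = (l.1 ^ 3) ^ 2 := fun l => by
      have := l.2
      rw [hF.pow, hq] at this
      linear_combination -l.1 * this
    have h4 : a.2 = b.2 := Subtype.ext (by rw [h3 a.2, h3 b.2, h2])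
    rw [h4, mul_left_inj] at e1
    exact Prod.ext (μ.inj e1) h4
  · have hc : Commute y.1 μ.t := mem_T.1 y.2.2
    obtain ⟨p, l, hl, e⟩ := μ.memB y.2.1 (r := t0) rfl t0_ne (by rw [← t, conj_eq_of_commute hc])
    have h1 := conj_eq_of_commute hc
    rw [e, t, μ.B_conj_z p hl rfl] at h1
    have h2 := congrArg Pt.b (μ.inj h1)
    rw [sc_b, t0_b, mul_one, lam_norm hl] at h2
    exact ⟨⟨p, l, h2⟩, Subtype.ext e.symm⟩

theorem cC8 (hq : q = 8) : ∃ h ∈ M, Commute h μ.t ∧ h ≠ 1 ∧ h ^ 3 = 1 := by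
  obtain ⟨l, hl1, hl3⟩ := exists_norm_one hF (by omega)
  have hl : l ≠ 0 := by rintro rfl; simp at hl1
  refine ⟨μ.h l, μ.h_mem hl, μ.h_comm hF hl1, fun e => hl3 ?_, ?_⟩
  · have := μ.act_B 1 hl
    rw [e, map_one, one_mul] at this
    have h1 : lam σ l = 1 := by
      simpa using this.uniq hF (Act.of_comm fun _ => Commute.one_left _) 1
    have := lam_of_norm hl1
    rwa [h1, one_mul] at this
  · have h2 := mul_ne_zero hl hl
    rw [pow_succ, pow_two, μ.h_mul hl hl, μ.h_mul h2 hl]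
    apply μ.h_one (mul_ne_zero h2 hl)
    have h3 := lam_of_norm (σ := σ) (l := l * l * l) (by
      simp only [map_mul]; linear_combination (l ^ 2 * σ l ^ 2 + l * σ l + 1) * hl1)
    rw [hF.pow, hq] at hl1
    rwa [show (l * l * l) ^ 3 = 1 by linear_combination hl1, mul_one] at h3

include μ in
theorem loc [Finite G] {m : ℕ} (hm : 2 ≤ m) (hq : q = 2 ^ m) : Loc M q (q ^ 3) := by
  have h4 : 4 ≤ q := hq ▸ Nat.pow_le_pow_right (by norm_num : 0 < 2) hm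
  have n1 : q ^ 3 ≠ q := by
    nth_rewrite 2 [← pow_one q]
    exact fun e => absurd (Nat.pow_right_injective (by omega : 2 ≤ q) e) (by norm_num)
  have n2 : q ^ 3 ≠ q ^ 2 :=
    fun e => absurd (Nat.pow_right_injective (by omega : 2 ≤ q) e) (by norm_num)
  have ex := @μ.exists_mod _ _ _ _ _ _ _ _ _ hF _
  have tri : ∀ (μ : Mod σ M) {g : G}, Nm M g → Ce M (g * g) → Commute (g * μ.t * g⁻¹) μ.t →
      Inn M μ.t g ∨ ((∃ e, μ.Act g fun a => e * σ a) ∧ (∀ r, r.a = 0 → Commute g (μ.x r)) ∧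
        ∃ n ∈ M, Commute n g ∧ ¬ Commute (n * μ.t * n⁻¹) μ.t) := by
    intro μ g h1 h2 h3
    rcases μ.dich hF h4 h1 h3 (c := 1) rfl (fun m hm => by
      rw [conj_eq_of_commute (h2 m hm), map_one]; group) with ⟨p, h5, h6⟩ | h5
    · exact Or.inl ⟨_, μ.x_ZZ hF (mul_self_iff.1 h6), h5⟩
    · exact Or.inr h5.2
  refine
    { pow := ⟨m, hm, hq⟩, kind := Or.inr (Or.inr rfl)
      memZ := fun ht => ?_, memS := fun ht => ?_, comm := fun ht h1 h2 => ?_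
      cardZ := fun ht => ?_, cardS := fun ht => ?_, two := fun ht h1 h2 h3 => ?_
      rex := fun ht hu hv h1 h2 => ?_, runiq := fun ht hu h1 h2 h3 => ?_
      nc := ⟨_, μ.t_I, _, μ.u_I, μ.nc_tu⟩, cS := fun ht h1 h2 => ?_
      lin := fun ht h1 h2 h3 h5 => ?_, tri := fun ht h1 h2 h3 => ?_
      pair := fun {t a b} ht ha hb h1 h2 h3 h5 h6 h7 h8 => ?_, inn := fun ht h1 h2 h3 => ?_
      four := fun {g} _ h1 h2 => ?_, same := fun ht => ?_, su1 := fun ht _ => ?_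
      su2 := fun ht _ => ?_, sq := fun ht _ hz => ?_, sqinj := fun _ e => absurd e n2
      cj := fun ht h1 h2 h3 => ?_, c4 := fun ht h1 h2 h3 h5 => ?_
      gen := fun ht hu h1 h2 h3 h5 h6 h7 v hv => ?_, sig := fun ht _ => ?_
      cC1 := fun _ e => absurd e n1, cC4 := fun ht e _ => ?_, cC8 := fun ht e _ => ?_ }
  · obtain ⟨ν, rfl⟩ := ex ht
    rw [ν.mem_ZZ hF]
    refine ⟨?_, fun h => ν.memZ0 hF h.1 h.2.1 h.2.2⟩
    rintro ⟨p, hp, rfl⟩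
    exact ⟨ν.x_mem p, by rw [← map_mul, mul_self_iff.2 hp, map_one], ν.x_t p⟩
  · obtain ⟨ν, rfl⟩ := ex ht
    rw [ν.mem_SS hF]
    refine ⟨?_, fun h => ν.memS0 hF h.1 (k := 2) h.2.1 h.2.2⟩
    rintro ⟨p, rfl⟩
    exact ⟨ν.x_mem p, by rw [← map_pow, pow_four, map_one], ν.x_t p⟩
  · obtain ⟨ν, rfl⟩ := ex ht
    obtain ⟨p, hp, rfl⟩ := (ν.mem_ZZ hF).1 h1
    obtain ⟨r, rfl⟩ := (ν.mem_SS hF).1 h2
    exact ν.x_comm hp r
  · obtain ⟨ν, rfl⟩ := ex ht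
    rw [← hF.cardF]
    refine (Nat.card_congr (Equiv.ofBijective (fun c : {x : K // σ x = x} =>
      (⟨ν.x (z c.1 c.2), ν.x_ZZ hF rfl⟩ : ZZ M ν.t)) ⟨fun a b e => ?_, fun y => ?_⟩)).symm
    · exact Subtype.ext (congrArg Pt.b (ν.inj (congrArg Subtype.val e)))
    · obtain ⟨p, hp, e⟩ := (ν.mem_ZZ hF).1 y.2
      rw [eq_z hp] at e
      exact ⟨⟨p.b, fix_b hp⟩, Subtype.ext e.symm⟩
  · obtain ⟨ν, rfl⟩ := ex ht
    rw [← Pt.card hF]
    refine (Nat.card_congr (Equiv.ofBijective (fun p : Pt σ =>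
      (⟨ν.x p, ν.x_SS hF p⟩ : SS M ν.t)) ⟨fun a b e => ?_, fun y => ?_⟩)).symm
    · exact ν.inj (congrArg Subtype.val e)
    · obtain ⟨p, e⟩ := (ν.mem_SS hF).1 y.2
      exact ⟨p, Subtype.ext e.symm⟩
  · obtain ⟨ν, rfl⟩ := ex ht
    exact (ν.mem_SS hF).2 (ν.memS0 hF h1 h3 h2)
  · obtain ⟨ν, rfl, h3⟩ := μ.exists_mod2 hF ht hu h1
    obtain ⟨p, hp⟩ := ν.rex0 hF hv h2
    have n := Nm.of_mem (ν.x_mem p)
    exact ⟨_, ν.x_SS hF p, ν.trans hF (n.I hu) (n.I ν.u_I) hv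
      ((commute_conj_iff _ _ _).2 h3.symm) hp⟩
  · obtain ⟨ν, rfl, h5⟩ := μ.exists_mod2 hF ht hu h1
    obtain ⟨p, rfl⟩ := (ν.mem_SS hF).1 h2
    have n := Nm.of_mem (ν.x_mem p)
    rw [ν.runiq0 (ν.trans hF (n.I ν.u_I) (n.I hu) ν.u_I ((commute_conj_iff _ _ _).2 h5)
      (ν.trans hF (n.I hu) hu ν.u_I h3 h5.symm)), map_one]
  · obtain ⟨ν, rfl⟩ := ex ht
    exact (ν.mem_ZZ hF).2 (ν.cS hF h1 fun p => h2 _ (ν.x_SS hF p))
  · obtain ⟨ν, rfl⟩ := ex ht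
    exact ν.lin hF h1 h2 h3 h5
  · obtain ⟨ν, rfl⟩ := ex ht
    refine (tri ν h1 h2 h3).imp_right fun h => ⟨h.2.2, Or.inl ⟨rfl, ?_⟩⟩
    exact (ν.ceZ_iff hF).2 fun c hc => h.2.1 _ rfl
  · obtain ⟨ν, rfl⟩ := ex ht
    obtain ⟨⟨e, k1⟩, -⟩ := (tri ν ha h1 h3).resolve_left h7
    obtain ⟨⟨e', k2⟩, -⟩ := (tri ν hb h2 h5).resolve_left h8
    refine (tri ν (ha.mul hb) ?_ (ν.fx_mul hF ht ha hb h3 h5)).resolve_right ?_
    · rw [show a * b * (a * b) = a * a * (b * b) by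
        rw [mul_assoc, ← mul_assoc b, ← h6.eq]; group]
      exact h1.mul h2
    · rintro ⟨⟨e'', k3⟩, -⟩
      have k4 := (k1.mul k2).uniq hF k3
      have k5 := (k3.mul k3).uniq hF (f' := id) (Act.of_comm fun p => by
        rw [show a * b * (a * b) = a * a * (b * b) by
          rw [mul_assoc, ← mul_assoc b, ← h6.eq]; group]
        exact (h1.mul h2) _ (ν.x_mem p)) 1
      obtain ⟨ω, hω⟩ := hF.tr
      have k6 := k4 1
      have k7 := k4 ω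
      simp only [map_mul, σσ, map_one, mul_one, id] at k5 k6 k7
      have : e'' = 0 := by linear_combination -e'' * hω + k7 - ω * k6 + e'' * σ ω * two0 K
      rw [this, zero_mul] at k5
      exact zero_ne_one k5
  · obtain ⟨ν, rfl⟩ := ex ht
    obtain ⟨p, g0, rfl, n0, f1, f2⟩ := ν.decomp hF h1 (by
      rw [t, conj_eq_of_commute (h2 _ (ν.x_ZZ hF rfl))])
    obtain ⟨α, e, φ, he, hx, ha, hb⟩ := ν.full hF h4 n0 f1 f2
    have k1 := ((ν.act_x p).mul (f' := fun a => e * φ a) fun r => ⟨_, hx r, ha r⟩).uniq hF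
      ((ν.tr_iff hF).1 h3)
    have k2 : e = 1 := by simpa using k1 1
    have k3 : ∀ a, φ a = a := by simpa [k2] using k1
    refine ⟨_, ν.x_SS hF p, ν.as_of_ce hF (ν.ce hF n0 (fun r => commute_of_conj_eq ?_) f2)⟩
    rw [hx]; congr 1
    exact Pt.ext (by simp [ha, k2, k3]) (by simp [hb, k2, k3])
  · obtain ⟨ν, e⟩ := ex h2
    have k1 : Commute g ν.t := e ▸ (Commute.refl g).mul_right (Commute.refl g)
    rcases ν.dich hF h4 h1 (by rw [conj_eq_of_commute k1]) (c := t0) rfl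
      (by rw [e]; exact As.refl _ _) with ⟨p, h5, -⟩ | h5
    · exact ⟨_, e ▸ ν.x_SS hF p, h5⟩
    · exact absurd h5.1 t0_ne
  · obtain ⟨ν, rfl⟩ := ex ht
    exact ν.same hF
  · obtain ⟨ν, rfl⟩ := ex ht
    exact ν.su1 hF
  · obtain ⟨ν, rfl⟩ := ex ht
    exact ν.su2 hF
  · obtain ⟨ν, rfl⟩ := ex ht
    obtain ⟨p, hp, rfl⟩ := (ν.mem_ZZ hF).1 hz
    obtain ⟨r, hr⟩ := exists_sq hF (fix_b hp)
    exact ⟨_, ν.x_SS hF r, by rw [← map_mul, hr, ← eq_z hp]⟩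
  · obtain ⟨ν, rfl⟩ := ex ht
    obtain ⟨p, rfl⟩ := (ν.mem_SS hF).1 h1
    obtain ⟨c, hc, rfl⟩ := (ν.mem_ZZ hF).1 h3
    have hp : p.a ≠ 0 := fun e => h2 (by rw [← map_mul, mul_self_iff.2 e, map_one])
    have hp' : σ p.a ≠ 0 := (map_ne_zero σ).2 hp
    obtain ⟨ω, hω⟩ := hF.tr
    obtain ⟨r, hr⟩ := exists_a hF (ω * c.b / σ p.a)
    refine ⟨_, ν.x_SS hF r, Or.inl ?_⟩
    rw [← map_inv, ← map_mul, ← map_mul, ← map_mul]
    congr 1
    ext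
    · rw [conj_a, mul_a, hc, add_zero]
    · rw [conj_b, mul_b, hc, hr, map_div₀, map_mul, σσ, fix_b hc]
      field_simp
      linear_combination c.b * hω
  · obtain ⟨ν, rfl⟩ := ex ht
    obtain ⟨p, rfl⟩ := (ν.mem_SS hF).1 h1
    exact (ν.mem_SS hF).2 (ν.c4 hF (fun e => h2 (by
      rw [← map_mul, mul_self_iff.2 e, map_one])) h3 h5)
  · obtain ⟨ν, rfl, k1⟩ := μ.exists_mod2 hF ht hu h1
    obtain ⟨p, rfl⟩ := (ν.mem_SS hF).1 h5
    exact ν.gen hF h2 (h3 (Subgroup.subset_closure ⟨ν.u_I.1, ν.u_I.2.2, k1⟩))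
      (fun e => h7 (by rw [← map_mul, mul_self_iff.2 e, map_one])) h6 hv
  · obtain ⟨ν, rfl⟩ := ex ht
    refine le_trans (le_of_eq ?_) (ncard_sq hF)
    rw [← Set.ncard_image_of_injective _ ν.inj]
    congr 1
    ext s
    constructor
    · rintro ⟨k1, k2⟩
      obtain ⟨p, rfl⟩ := (ν.mem_SS hF).1 k1
      exact ⟨p, ν.inj (by rw [map_mul]; exact k2), rfl⟩
    · rintro ⟨p, hp, rfl⟩
      exact ⟨ν.x_SS hF p, by rw [← map_mul, hp, t]⟩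
  · obtain ⟨ν, rfl⟩ := ex ht
    exact ν.cC4 hF e
  · obtain ⟨ν, rfl⟩ := ex ht
    exact ν.cC8 hF e

end Mod

end Cfsg.Agent.BdU
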