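import Cfsg.Agent.Lib.BdU.Loc
import Cfsg.Agent.Lib.AIC.UMat

/-!
# The matrices of `SU₃(q)`, and the local axioms for `PSU₃(q)`, `q` even
-/

set_option autoImplicit false
set_option linter.unusedSectionVars false

namespace Cfsg.Agent.BdU

open Cfsg.Agent.AIC Cfsg.Agent.Bd Pt Matrix

variable {K G : Type*} [Field K] [CharP K 2] [Group G] (σ : K →+* K) [Invol σ]

/-- The special unitary group of the antidiagonal form. -/
def SU' : Subgroup (SpecialLinearGroup (Fin 3) K) := preserving (slToMat 3 K) (hf σ)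

variable {σ}

theorem mem_SU' {g : SpecialLinearGroup (Fin 3) K} :
    g ∈ SU' σ ↔ ∀ u v, hf σ (g.1 *ᵥ u) (g.1 *ᵥ v) = hf σ u v := Iff.rfl

theorem SU'_ext {g h : SU' σ} (e : g.1.1 = h.1.1) : g = h := Subtype.ext (Subtype.ext e)

theorem SU'_mul (g h : SU' σ) : (g * h).1.1 = g.1.1 * h.1.1 := rfl

/-- The matrix of an element of `S`. -/
def xm (p : Pt σ) : Matrix (Fin 3) (Fin 3) K := !![1, σ p.a, p.b; 0, 1, p.a; 0, 0, 1]

/-- The matrix of an element of the torus. -/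
def hm (σ : K →+* K) (l : K) : Matrix (Fin 3) (Fin 3) K := !![l, 0, 0; 0, σ l / l, 0; 0, 0, (σ l)⁻¹]

/-- The matrix of the Weyl element. -/
def wm (K : Type*) [Field K] : Matrix (Fin 3) (Fin 3) K := !![0, 0, 1; 0, 1, 0; 1, 0, 0]

/-- The Sylow subgroup. -/
def X : Pt σ →* SU' σ where
  toFun p := ⟨⟨xm p, by simp [xm, det_fin_three]⟩, fun u v => by
    have h20 := two0 K
    show hf σ (xm p *ᵥ u) (xm p *ᵥ v) = _
    simp [hf, xm, mulVec, dotProduct, Fin.sum_univ_three]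
    linear_combination u 2 * σ (v 2) * p.hab +
      (σ p.a * u 1 * σ (v 2) + p.a * u 2 * σ (v 1) + p.a * σ p.a * u 2 * σ (v 2)) * h20⟩
  map_one' := SU'_ext (by
    show xm 1 = 1
    ext i j
    fin_cases i <;> fin_cases j <;> simp [xm])
  map_mul' p r := SU'_ext (by
    show xm (p * r) = xm p * xm r
    ext i j
    fin_cases i <;> fin_cases j <;> simp [xm, mul_apply, Fin.sum_univ_three] <;> ring)

theorem X_val (p : Pt σ) : (X p).1.1 = xm p := rfl

open Classical in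
/-- The torus. -/
noncomputable def H (σ : K →+* K) [Invol σ] (l : K) : SU' σ :=
  if h : l = 0 then 1 else ⟨⟨hm σ l, by
    have : σ l ≠ 0 := (map_ne_zero σ).2 h
    simp [hm, det_fin_three]; field_simp⟩, fun u v => by
    have : σ l ≠ 0 := (map_ne_zero σ).2 h
    show hf σ (hm σ l *ᵥ u) (hm σ l *ᵥ v) = _
    simp [hf, hm, mulVec, dotProduct, Fin.sum_univ_three]
    field_simp⟩

theorem H_val {l : K} (h : l ≠ 0) : (H σ l).1.1 = hm σ l := by rw [H, dif_neg h]

/-- The Weyl element. -/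
def W (σ : K →+* K) [Invol σ] : SU' σ :=
  ⟨⟨wm K, by simp [wm, det_fin_three, CharTwo.neg_eq]⟩, fun u v => by
    show hf σ (wm K *ᵥ u) (wm K *ᵥ v) = _
    simp [hf, wm, mulVec, dotProduct, Fin.sum_univ_three]; ring⟩

theorem W_val : (W σ).1.1 = wm K := rfl

theorem WW : W σ * W σ = 1 := SU'_ext (by
  show wm K * wm K = 1
  ext i j
  fin_cases i <;> fin_cases j <;> simp [wm, mul_apply, Fin.sum_univ_three])

theorem W_inv : (W σ)⁻¹ = W σ := inv_eq_of_mul_eq_one_right WW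

theorem H_X {l : K} (h : l ≠ 0) (p : Pt σ) : H σ l * X p * (H σ l)⁻¹ = X (sc (lam σ l) p) := by
  have : σ l ≠ 0 := (map_ne_zero σ).2 h
  rw [mul_inv_eq_iff_eq_mul]
  apply SU'_ext
  simp only [SU'_mul, H_val h, X_val]
  ext i j
  fin_cases i <;> fin_cases j <;> simp [xm, hm, lam, mul_apply, Fin.sum_univ_three] <;> field_simp

theorem H_mul {l m : K} (h : l ≠ 0) (h' : m ≠ 0) : H σ l * H σ m = H σ (l * m) := by
  apply SU'_ext
  simp only [SU'_mul, H_val h, H_val h', H_val (mul_ne_zero h h')]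
  ext i j
  fin_cases i <;> fin_cases j <;> simp [hm, mul_apply, Fin.sum_univ_three] <;> field_simp

theorem H_center {l : K} (h : l ≠ 0) (e : lam σ l = 1) : H σ l ∈ Subgroup.center (SU' σ) := by
  have h1 : σ l ^ 2 = l := by rwa [lam, div_eq_one_iff_eq h] at e
  have h2 : l ^ 2 = σ l := by simpa using congrArg σ h1
  have h3 : l ^ 3 = 1 := mul_left_cancel₀ h (by rw [← h2] at h1; linear_combination h1)
  have h4 : hm σ l = l • (1 : Matrix (Fin 3) (Fin 3) K) := by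
    ext i j
    fin_cases i <;> fin_cases j <;> simp [hm, ← h2]
    · field_simp
    · field_simp; exact h3.symm
  refine Subgroup.mem_center_iff.2 fun g => SU'_ext ?_
  simp [SU'_mul, H_val h, h4]

theorem W_H {l : K} (h : l ≠ 0) : W σ * H σ l * (W σ)⁻¹ = H σ (σ l)⁻¹ := by
  have : σ l ≠ 0 := (map_ne_zero σ).2 h
  rw [W_inv]
  apply SU'_ext
  simp only [SU'_mul, H_val h, W_val, H_val (inv_ne_zero this)]
  ext i j
  fin_cases i <;> fin_cases j <;> simp [wm, hm, mul_apply, Fin.sum_univ_three]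
  field_simp

theorem W_X {p p' r : Pt σ} (h1 : p'.a * p.b = p.a) (h2 : p'.b * p.b = 1)
    (h3 : r.a * p.b = p.a * σ p.b) (h4 : r.b = σ p.b) :
    W σ * X p * (W σ)⁻¹ = X p' * W σ * (X r * H σ p.b) := by
  have h20 := two0 K
  have hb : p.b ≠ 0 := fun e => by simp [e] at h2
  have hb' : σ p.b ≠ 0 := (map_ne_zero σ).2 hb
  have e1 : p'.a = p.a / p.b := by field_simp; exact h1
  have e2 : p'.b = 1 / p.b := by field_simp; exact h2
  have e3 : r.a = p.a * σ p.b / p.b := by field_simp; exact h3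
  have hab := p.hab
  rw [W_inv]
  apply SU'_ext
  simp only [SU'_mul, H_val hb, W_val, X_val]
  ext i j
  fin_cases i <;> fin_cases j <;>
    simp [wm, hm, xm, mul_apply, Fin.sum_univ_three, e1, e2, e3, h4] <;> field_simp
  · linear_combination -σ p.a * h20
  · linear_combination -hab - p.a * σ p.a * h20
  · linear_combination -hab + σ p.b * h20 - (σ p.b + p.a * σ p.a - p.b) * h20
  · linear_combination -p.a * h20

theorem upper {g : SU' σ} (h : g.1.1 2 0 = 0) : ∃ p l, l ≠ 0 ∧ g = X p * H σ l := by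
  have h20 := two0 K
  have f := mem_SU'.1 g.2
  have f0 := f ![1, 0, 0] ![1, 0, 0]
  simp [hf, mulVec, dotProduct, Fin.sum_univ_three, h] at f0
  have f1 := f ![1, 0, 0] ![0, 0, 1]
  simp [hf, mulVec, dotProduct, Fin.sum_univ_three, h, f0] at f1
  have hl : g.1.1 0 0 ≠ 0 := fun e => by simp [e] at f1
  have hl' : σ (g.1.1 0 0) ≠ 0 := (map_ne_zero σ).2 hl
  have f2 := f ![1, 0, 0] ![0, 1, 0]
  simp [hf, mulVec, dotProduct, Fin.sum_univ_three, h, f0, hl] at f2
  have f3 := f ![0, 1, 0] ![0, 0, 1]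
  have f4 := f ![0, 0, 1] ![0, 0, 1]
  simp [hf, mulVec, dotProduct, Fin.sum_univ_three, h, f0, f2] at f3 f4
  have f5 : g.1.1.det = 1 := g.1.2
  rw [det_fin_three, h, f0, f2] at f5
  simp only [mul_zero, zero_mul, sub_zero, add_zero] at f5
  have e1 : σ (g.1.1 2 2) = (g.1.1 0 0)⁻¹ := eq_inv_of_mul_eq_one_right f1
  have e2 : g.1.1 2 2 = (σ (g.1.1 0 0))⁻¹ := by simpa using congrArg σ e1
  have e3 : g.1.1 1 1 = σ (g.1.1 0 0) / g.1.1 0 0 := by
    rw [e2] at f5; field_simp at f5 ⊢; linear_combination f5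
  rw [e1, e3] at f3
  rw [e1, e2] at f4
  field_simp at f3 f4
  refine ⟨⟨g.1.1 1 2 * σ (g.1.1 0 0), g.1.1 0 2 * σ (g.1.1 0 0), ?_⟩, g.1.1 0 0, hl, SU'_ext ?_⟩
  · simp only [map_mul, σσ]
    linear_combination f4 - g.1.1 1 2 * σ (g.1.1 1 2) * g.1.1 0 0 * σ (g.1.1 0 0) * h20
  · simp only [SU'_mul, H_val hl, X_val]
    ext i j
    fin_cases i <;> fin_cases j <;>
      simp [hm, xm, mul_apply, Fin.sum_univ_three, h, f0, f2, e2, e3, hl']
    field_simp
    linear_combination f3 - σ (g.1.1 0 0) * σ (g.1.1 1 2) * h20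

theorem bruhat' (g : SU' σ) : (∃ p l, l ≠ 0 ∧ g = X p * H σ l) ∨
    ∃ p r l, l ≠ 0 ∧ g = X p * W σ * (X r * H σ l) := by
  by_cases h : g.1.1 2 0 = 0
  · exact Or.inl (upper h)
  right
  have h20 := two0 K
  have h' : σ (g.1.1 2 0) ≠ 0 := (map_ne_zero σ).2 h
  have f0 := mem_SU'.1 g.2 ![1, 0, 0] ![1, 0, 0]
  simp [hf, mulVec, dotProduct, Fin.sum_univ_three] at f0
  obtain ⟨p, h1, h2⟩ : ∃ p : Pt σ, p.a = g.1.1 1 0 / g.1.1 2 0 ∧ p.b = g.1.1 0 0 / g.1.1 2 0 :=
    ⟨⟨_, _, by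
      simp only [map_div₀]
      field_simp
      linear_combination f0 - g.1.1 1 0 * σ (g.1.1 1 0) * h20⟩, rfl, rfl⟩
  obtain ⟨r, l, hl, e⟩ := upper (g := W σ * (X p⁻¹ * g)) (by
    simp only [SU'_mul, W_val, X_val]
    simp [wm, xm, mul_apply, Fin.sum_univ_three, vecMul, dotProduct, h1, h2]
    field_simp
    linear_combination f0)
  refine ⟨p, r, l, hl, ?_⟩
  rw [← e, map_inv, mul_assoc, ← mul_assoc (W σ), WW]; group

theorem X_center {p : Pt σ} (h : X p ∈ Subgroup.center (SU' σ)) : p = 1 := by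
  have e := congrArg (fun g : SU' σ => g.1.1 0 0) (Subgroup.mem_center_iff.1 h (W σ))
  simp [SU'_mul, W_val, X_val, wm, xm, mul_apply, Fin.sum_univ_three] at e
  by_contra hp
  exact b_ne hp e.symm

theorem nc_center {r : Pt σ} (hr : r.a = 0)
    (h : W σ * X r * W σ * X t0 * (W σ * X r * W σ * X t0) ∈ Subgroup.center (SU' σ)) : r = 1 := by
  have e := congrArg (fun g : SU' σ => g.1.1 0 0) (Subgroup.mem_center_iff.1 h (X t0))
  simp [SU'_mul, W_val, X_val, wm, xm, mul_apply, Fin.sum_univ_three, hr] at e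
  by_contra hp
  have hb := b_ne hp
  have : r.b * r.b = 0 := by linear_combination e - r.b * two0 K
  exact mul_ne_zero hb hb this

/-- The model defined by a homomorphism from `SU'` whose kernel is the centre. -/
noncomputable def modOf {M : Subgroup G} (π : SU' σ →* G) (hr : ∀ m, m ∈ M ↔ ∃ g, π g = m)
    (hk : ∀ g, π g = 1 ↔ g ∈ Subgroup.center (SU' σ)) : Mod σ M where
  x := π.comp X
  h l := π (H σ l)
  w := π (W σ)
  inj := (injective_iff_map_eq_one _).2 fun _ h => X_center ((hk _).1 h)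
  x_mem _ := (hr _).2 ⟨_, rfl⟩
  h_mem _ := (hr _).2 ⟨_, rfl⟩
  w_mem := (hr _).2 ⟨_, rfl⟩
  h_x hl p := by simpa using congrArg π (H_X hl p)
  h_mul hl hm := by rw [← map_mul, H_mul hl hm]
  h_one hl e := (hk _).2 (H_center hl e)
  ww := by rw [← map_mul, WW, map_one]
  w_h hl := by simpa using congrArg π (W_H hl)
  w_x h1 h2 h3 h4 := by simpa using congrArg π (W_X h1 h2 h3 h4)
  bruhat {m} hm := by
    obtain ⟨g, rfl⟩ := (hr m).1 hm
    rcases bruhat' g with ⟨p, l, hl, rfl⟩ | ⟨p, r, l, hl, rfl⟩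
    · exact Or.inl ⟨p, l, hl, by simp⟩
    · exact Or.inr ⟨p, r, l, hl, by simp⟩
  nc {r} h1 h2 hc := h2 (nc_center h1 ((hk _).1 (by
    have e1 : π (W σ * X r * W σ) * π (W σ * X r * W σ) = 1 := by
      rw [← map_mul, show W σ * X r * W σ * (W σ * X r * W σ) =
        W σ * (X r * (W σ * W σ) * X r) * W σ by group, WW, mul_one, ← map_mul,
        mul_self_iff.2 h1, map_one, mul_one, WW, map_one]
    have e2 : π (X t0) * π (X t0) = 1 := by
      rw [← map_mul, ← map_mul, mul_self_iff.2 rfl, map_one, map_one]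
    have e3 : Commute (π (W σ * X r * W σ)) (π (X t0)) := by
      rw [← map_inv, W_inv] at hc
      simpa using hc
    rw [map_mul, map_mul π _ (X t0)]
    generalize π (W σ * X r * W σ) = a at *
    rw [mul_assoc, ← mul_assoc (π (X t0)), ← e3.eq, mul_assoc, e2, mul_one, e1])))

theorem exists_SU_equiv {q : ℕ} (hF : FD σ q) : Nonempty (SU' σ ≃* SU 3 K q) := by
  have h20 := two0 K
  obtain ⟨ω, hω⟩ := hF.tr
  let P : SpecialLinearGroup (Fin 3) K := ⟨!![1, 0, ω; 1, 0, ω + 1; 0, 1, 0], by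
    simp [det_fin_three]; linear_combination -h20⟩
  have hP : ∀ u v, hermForm 3 K q (P.1 *ᵥ u) (P.1 *ᵥ v) = hf σ u v := fun u v => by
    simp [hermForm, hf, P, mulVec, dotProduct, Fin.sum_univ_three, ← hF.pow]
    linear_combination u 2 * σ (v 2) * hω + (u 0 * σ (v 0) + u 0 * σ ω * σ (v 2) +
      ω * u 2 * σ (v 0) + ω * σ ω * u 2 * σ (v 2) + u 2 * σ (v 2)) * h20
  have e1 : P.1 * (P⁻¹).1 = 1 := congrArg Subtype.val (mul_inv_cancel P)
  refine ⟨((MulAut.conj P).subgroupMap (SU' σ)).trans (MulEquiv.subgroupCongr ?_)⟩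
  ext g
  refine Subgroup.mem_map_equiv.trans (mem_SU'.trans ?_)
  have e2 : ((MulAut.conj P).symm g).1 = (P⁻¹).1 * g.1 * P.1 := rfl
  simp only [e2, ← mulVec_mulVec, ← hP]
  simp only [mulVec_mulVec, ← mul_assoc, e1, one_mul]
  refine ⟨fun h u v => ?_, fun h u v => ?_⟩
  · have := h ((P⁻¹).1 *ᵥ u) ((P⁻¹).1 *ᵥ v)
    simp only [mulVec_mulVec, mul_assoc, e1, mul_one, one_mulVec] at this
    exact this
  · have := h (P.1 *ᵥ u) (P.1 *ᵥ v)
    simp only [← mulVec_mulVec]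
    exact this

omit [Field K] [CharP K 2] [Group G] [Invol σ] in
theorem loc_U3 {G : Type*} [Group G] [Finite G] (M : Subgroup G) {m : ℕ} (hm : 2 ≤ m)
    {K : Type} [Field K] [Fintype K] (hK : Fintype.card K = (2 ^ m) ^ 2)
    (e : M ≃* Cfsg.PSU 3 K (2 ^ m)) : Bd.Loc M (2 ^ m) ((2 ^ m) ^ 3) := by
  have h4 : 4 ≤ 2 ^ m := Nat.pow_le_pow_right (by norm_num : 0 < 2) hm
  have : CharP K 2 := by
    obtain ⟨p, k, hp, hc, hk, e⟩ := Forms.exists_char_pow hK
    have : p = 2 := (Nat.prime_dvd_prime_iff_eq hp Nat.prime_two).1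
      (hp.dvd_of_dvd_pow (e ▸ dvd_pow_self p (by omega)))
    exact this ▸ hc
  obtain ⟨hI, hF⟩ := fd_frobq (by omega) hK
  obtain ⟨f⟩ := exists_SU_equiv hF
  refine Mod.loc (modOf (M.subtype.comp (e.symm.toMonoidHom.comp
    ((QuotientGroup.mk' _).comp f.toMonoidHom))) (fun a => ⟨fun ha => ?_, ?_⟩) fun g => ?_) hF hm rfl
  · obtain ⟨y, hy⟩ := QuotientGroup.mk_surjective (e ⟨a, ha⟩)
    exact ⟨f.symm y, by simp [hy]⟩
  · rintro ⟨g, rfl⟩; exact SetLike.coe_mem _
  · have h1 : f g ∈ Subgroup.center (SU 3 K (2 ^ m)) ↔ g ∈ Subgroup.center _ :=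
      MulEquivClass.apply_mem_center_iff f
    rw [← h1, ← QuotientGroup.eq_one_iff]
    simp

end Cfsg.Agent.BdU
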