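import Cfsg.Agent.Lib.BdU.Pt
import Cfsg.Agent.Lib.Bd.Loc

/-!
# A subgroup `M ≅ U₃(q)` described by generators, relations and the Bruhat decomposition
-/

set_option autoImplicit false
set_option linter.unusedSectionVars false

namespace Cfsg.Agent.BdU

open Cfsg.Agent.AIC Cfsg.Agent.Bd Pt

variable {K G : Type*} [Field K] [CharP K 2] [Group G]

/-- The scalar by which `h l` acts on `S / Z`. -/
def lam (σ : K →+* K) (l : K) : K := σ l ^ 2 / l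

/-- The model. -/
structure Mod (σ : K →+* K) [Invol σ] (M : Subgroup G) where
  x : Pt σ →* G
  h : K → G
  w : G
  inj : Function.Injective x
  x_mem : ∀ p, x p ∈ M
  h_mem : ∀ {l}, l ≠ 0 → h l ∈ M
  w_mem : w ∈ M
  h_x : ∀ {l}, l ≠ 0 → ∀ p, h l * x p * (h l)⁻¹ = x (sc (lam σ l) p)
  h_mul : ∀ {l m}, l ≠ 0 → m ≠ 0 → h l * h m = h (l * m)
  h_one : ∀ {l}, l ≠ 0 → lam σ l = 1 → h l = 1
  ww : w * w = 1
  w_h : ∀ {l}, l ≠ 0 → w * h l * w⁻¹ = h (σ l)⁻¹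
  w_x : ∀ {p p' r}, p'.a * p.b = p.a → p'.b * p.b = 1 → r.a * p.b = p.a * σ p.b → r.b = σ p.b →
    w * x p * w⁻¹ = x p' * w * (x r * h p.b)
  bruhat : ∀ {m}, m ∈ M → (∃ p l, l ≠ 0 ∧ m = x p * h l) ∨
    ∃ p r l, l ≠ 0 ∧ m = x p * w * (x r * h l)
  nc : ∀ {r}, r.a = 0 → r ≠ 1 → ¬ Commute (w * x r * w⁻¹) (x t0)

variable {σ : K →+* K} [Invol σ] {M : Subgroup G}

theorem lam_ne {l : K} (h : l ≠ 0) : lam σ l ≠ 0 :=
  div_ne_zero (pow_ne_zero _ ((map_ne_zero σ).2 h)) h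

theorem lam_norm {l : K} (h : l ≠ 0) : lam σ l * σ (lam σ l) = l * σ l := by
  have : σ l ≠ 0 := (map_ne_zero σ).2 h
  simp only [lam, map_div₀, map_pow, σσ]
  field_simp

theorem lam_fix {l : K} (h : l ≠ 0) (h' : σ l = l) : lam σ l = l := by
  simp only [lam, h']; field_simp

theorem lam_of_norm {l : K} (h : l * σ l = 1) : lam σ l * l ^ 3 = 1 := by
  have h0 : l ≠ 0 := by rintro rfl; simp at h
  simp only [lam]
  field_simp
  linear_combination (l * σ l + 1) * h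

theorem sc_ne {l : K} (hl : l ≠ 0) {p : Pt σ} (hp : p ≠ 1) : sc l p ≠ 1 := fun e =>
  mul_ne_zero (mul_ne_zero hl ((map_ne_zero σ).2 hl)) (b_ne hp) (congrArg Pt.b e)

theorem exists_winv {p : Pt σ} (hp : p ≠ 1) : ∃ p' r : Pt σ, p'.a * p.b = p.a ∧ p'.b * p.b = 1 ∧
    r.a * p.b = p.a * σ p.b ∧ r.b = σ p.b := by
  have h1 := b_ne hp
  have h2 : σ p.b ≠ 0 := (map_ne_zero σ).2 h1
  refine ⟨⟨p.a / p.b, 1 / p.b, ?_⟩, ⟨p.a * σ p.b / p.b, σ p.b, ?_⟩, by field_simp, by field_simp,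
    by field_simp, rfl⟩
  · simp only [map_div₀, map_one]
    field_simp
    linear_combination p.hab
  · simp only [map_div₀, map_mul, σσ]
    field_simp
    linear_combination p.hab

namespace Mod

variable (μ : Mod σ M)

/-- The standard involution. -/
def t : G := μ.x t0

/-- The opposite involution. -/
def u : G := μ.w * μ.t * μ.w⁻¹

/-- The conjugate model. -/
def conj {k : G} (hk : k ∈ M) : Mod σ M where
  x := (MulAut.conj k).toMonoidHom.comp μ.x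
  h l := k * μ.h l * k⁻¹
  w := k * μ.w * k⁻¹
  inj := (MulAut.conj k).injective.comp μ.inj
  x_mem p := Nm.of_mem hk _ (μ.x_mem p)
  h_mem hl := Nm.of_mem hk _ (μ.h_mem hl)
  w_mem := Nm.of_mem hk _ μ.w_mem
  h_x hl p := by
    show _ * (k * _ * k⁻¹) * _ = k * _ * k⁻¹
    rw [← μ.h_x hl]; group
  h_mul hl hm := by rw [← μ.h_mul hl hm]; group
  h_one hl e := by rw [μ.h_one hl e]; group
  ww := by
    calc _ = k * (μ.w * μ.w) * k⁻¹ := by group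
      _ = 1 := by rw [μ.ww]; group
  w_h hl := by rw [← μ.w_h hl]; group
  w_x {p p' r} h1 h2 h3 h4 := by
    show _ * (k * _ * k⁻¹) * _ = k * _ * k⁻¹ * _ * (k * _ * k⁻¹ * _)
    calc _ = k * (μ.w * μ.x p * μ.w⁻¹) * k⁻¹ := by group
      _ = _ := by rw [μ.w_x h1 h2 h3 h4]; group
  bruhat {m} hm := by
    have e : m = k * (k⁻¹ * m * k⁻¹⁻¹) * k⁻¹ := by group
    rcases μ.bruhat (Nm.of_mem (M.inv_mem hk) m hm) with ⟨p, l, hl, h⟩ | ⟨p, r, l, hl, h⟩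
    · refine Or.inl ⟨p, l, hl, ?_⟩
      show _ = k * _ * k⁻¹ * _
      rw [e, h]; group
    · refine Or.inr ⟨p, r, l, hl, ?_⟩
      show _ = k * _ * k⁻¹ * _ * (k * _ * k⁻¹ * _)
      rw [e, h]; group
  nc {r} h1 h2 hc := μ.nc h1 h2 (by
    rw [← commute_conj_iff k]
    have e : k * (μ.w * μ.x r * μ.w⁻¹) * k⁻¹ =
        k * μ.w * k⁻¹ * (k * μ.x r * k⁻¹) * (k * μ.w * k⁻¹)⁻¹ := by group
    rw [e]; exact hc)

theorem conj_x {k : G} (hk : k ∈ M) (p : Pt σ) : (μ.conj hk).x p = k * μ.x p * k⁻¹ := rfl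
theorem conj_t {k : G} (hk : k ∈ M) : (μ.conj hk).t = k * μ.t * k⁻¹ := rfl
theorem conj_u {k : G} (hk : k ∈ M) : (μ.conj hk).u = k * μ.u * k⁻¹ := by
  show k * μ.w * k⁻¹ * (k * μ.t * k⁻¹) * (k * μ.w * k⁻¹)⁻¹ = k * (μ.w * μ.t * μ.w⁻¹) * k⁻¹
  group

theorem w_inv : μ.w⁻¹ = μ.w := inv_eq_of_mul_eq_one_right μ.ww

theorem x_I {r : Pt σ} (h : r.a = 0) (h1 : r ≠ 1) : μ.x r ∈ I M :=
  ⟨μ.x_mem r, (map_ne_one_iff _ μ.inj).2 h1, by rw [← map_mul, mul_self_iff.2 h, map_one]⟩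

theorem t_I : μ.t ∈ I M := μ.x_I rfl t0_ne
theorem u_I : μ.u ∈ I M := (Nm.of_mem μ.w_mem).I μ.t_I

theorem x_comm {r : Pt σ} (h : r.a = 0) (p : Pt σ) : Commute (μ.x p) (μ.x r) :=
  (commute_of_a h p).map _

theorem x_t (p : Pt σ) : Commute (μ.x p) μ.t := μ.x_comm rfl p

theorem h_inv {l : K} (hl : l ≠ 0) : (μ.h l)⁻¹ = μ.h l⁻¹ := by
  apply inv_eq_of_mul_eq_one_right
  rw [μ.h_mul hl (inv_ne_zero hl), mul_inv_cancel₀ hl]
  exact μ.h_one one_ne_zero (by simp [lam])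

theorem B_conj (p : Pt σ) {l : K} (hl : l ≠ 0) (r : Pt σ) :
    μ.x p * μ.h l * μ.x r * (μ.x p * μ.h l)⁻¹ = μ.x (p * sc (lam σ l) r * p⁻¹) := by
  rw [map_mul, map_mul, map_inv, ← μ.h_x hl]; group

theorem B_conj_z (p : Pt σ) {l : K} (hl : l ≠ 0) {r : Pt σ} (hr : r.a = 0) :
    μ.x p * μ.h l * μ.x r * (μ.x p * μ.h l)⁻¹ = μ.x (sc (lam σ l) r) := by
  rw [μ.B_conj p hl, conj_eq_of_commute (commute_of_a (by simp [hr]) p)]

theorem W_conj_z (p s : Pt σ) {l : K} (hl : l ≠ 0) {r : Pt σ} (hr : r.a = 0) :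
    μ.x p * μ.w * (μ.x s * μ.h l) * μ.x r * (μ.x p * μ.w * (μ.x s * μ.h l))⁻¹ =
      μ.x p * (μ.w * μ.x (sc (lam σ l) r) * μ.w⁻¹) * (μ.x p)⁻¹ := by
  rw [← μ.B_conj_z s hl hr]; group

theorem memB {m : G} (hm : m ∈ M) {r : Pt σ} (hr : r.a = 0) (h1 : r ≠ 1)
    (h : Commute (m * μ.x r * m⁻¹) μ.t) : ∃ p l, l ≠ 0 ∧ m = μ.x p * μ.h l := by
  refine (μ.bruhat hm).resolve_right ?_
  rintro ⟨p, s, l, hl, rfl⟩
  rw [μ.W_conj_z p s hl hr, ← conj_eq_of_commute (μ.x_t p), commute_conj_iff] at h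
  exact μ.nc (by simp [hr]) (sc_ne (lam_ne hl) h1) h

/-- `g` normalises `S` and acts on `S / Z` as `f`. -/
def Act (g : G) (f : K → K) : Prop := ∀ p, ∃ r, g * μ.x p * g⁻¹ = μ.x r ∧ r.a = f p.a

variable {μ}

theorem Act.mul {g k : G} {f f' : K → K} (h : μ.Act g f) (h' : μ.Act k f') :
    μ.Act (g * k) (fun a => f (f' a)) := fun p => by
  obtain ⟨r, h1, h2⟩ := h' p
  obtain ⟨s, h3, h4⟩ := h r
  exact ⟨s, by rw [← h3, ← h1]; group, by rw [h4, h2]⟩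

theorem Act.pow {g : G} {e : K} (h : μ.Act g (e * ·)) (n : ℕ) : μ.Act (g ^ n) (e ^ n * ·) := by
  induction n with
  | zero => exact fun p => ⟨p, by simp, by simp⟩
  | succ n ih =>
    have := ih.mul h
    rw [pow_succ]
    convert this using 2
    rw [pow_succ, mul_assoc]

theorem Act.uniq {q : ℕ} (hF : FD σ q) {g : G} {f f' : K → K} (h : μ.Act g f) (h' : μ.Act g f')
    (a : K) : f a = f' a := by
  obtain ⟨p, rfl⟩ := exists_a hF a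
  obtain ⟨r, h1, h2⟩ := h p
  obtain ⟨s, h3, h4⟩ := h' p
  rw [← h2, ← h4, μ.inj (h1.symm.trans h3)]

theorem Act.of_comm {g : G} (h : ∀ p, Commute g (μ.x p)) : μ.Act g id :=
  fun p => ⟨p, conj_eq_of_commute (h p), rfl⟩

theorem Act.eq_one {q : ℕ} (hF : FD σ q) {g : G} {e : K} (h : μ.Act g (e * ·)) {k : ℕ}
    (hk : μ.Act (g ^ 2 ^ k) id) : e = 1 :=
  eq_one_of_pow2 (k := k) (by simpa using (h.pow (2 ^ k)).uniq hF hk 1)

variable (μ)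

theorem act_B (p : Pt σ) {l : K} (hl : l ≠ 0) : μ.Act (μ.x p * μ.h l) (lam σ l * ·) :=
  fun r => ⟨_, μ.B_conj p hl r, by rw [conj_a, sc_a]⟩

theorem act_x (p : Pt σ) : μ.Act (μ.x p) id :=
  fun r => ⟨p * r * p⁻¹, by simp, conj_a p r⟩

variable {q : ℕ} (hF : FD σ q)
include hF

theorem memS' {s : G} (hs : s ∈ M) {k : ℕ} (h2 : s ^ 2 ^ k = 1) {r : Pt σ} (hr : r.a = 0)
    (h1 : r ≠ 1) (h : Commute (s * μ.x r * s⁻¹) μ.t) : ∃ p, s = μ.x p := by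
  obtain ⟨p, l, hl, rfl⟩ := μ.memB hs hr h1 h
  have := (μ.act_B p hl).eq_one hF (k := k) (by
    rw [h2]; exact Act.of_comm fun _ => Commute.one_left _)
  exact ⟨p, by rw [μ.h_one hl this, mul_one]⟩

theorem memS0 {s : G} (hs : s ∈ M) {k : ℕ} (h2 : s ^ 2 ^ k = 1) (h : Commute s μ.t) :
    ∃ p, s = μ.x p :=
  μ.memS' hF hs h2 (r := t0) rfl t0_ne (by rw [← t, conj_eq_of_commute h])

theorem memZ0 {s : G} (hs : s ∈ M) (h2 : s * s = 1) (h : Commute s μ.t) :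
    ∃ p, p.a = 0 ∧ s = μ.x p := by
  obtain ⟨p, rfl⟩ := μ.memS0 hF hs (k := 1) (by rw [pow_one, pow_two, h2]) h
  exact ⟨p, mul_self_iff.1 (μ.inj (by rw [map_mul, h2, map_one])), rfl⟩

theorem mem_SS {s : G} : s ∈ SS M μ.t ↔ ∃ p, s = μ.x p := by
  have : {s | s ∈ M ∧ s ^ 4 = 1 ∧ Commute s μ.t} = μ.x.range := by
    ext s
    constructor
    · rintro ⟨h1, h2, h3⟩
      obtain ⟨p, rfl⟩ := μ.memS0 hF h1 (k := 2) h2 h3
      exact ⟨p, rfl⟩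
    · rintro ⟨p, rfl⟩
      exact ⟨μ.x_mem p, by rw [← map_pow, pow_four, map_one], μ.x_t p⟩
  rw [SS, this, Subgroup.closure_eq]
  exact exists_congr fun _ => eq_comm

theorem mem_ZZ {s : G} : s ∈ ZZ M μ.t ↔ ∃ p, p.a = 0 ∧ s = μ.x p := by
  let Z : Subgroup (Pt σ) :=
    { carrier := {p | p.a = 0}
      mul_mem' := fun {a b} ha hb => by
        simp only [Set.mem_ofPred_eq] at *; simp [ha, hb]
      one_mem' := rfl
      inv_mem' := fun h => h }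
  have : {s | s ∈ M ∧ s * s = 1 ∧ Commute s μ.t} = Z.map μ.x := by
    ext s
    constructor
    · rintro ⟨h1, h2, h3⟩
      obtain ⟨p, hp, rfl⟩ := μ.memZ0 hF h1 h2 h3
      exact ⟨p, hp, rfl⟩
    · rintro ⟨p, hp, rfl⟩
      exact ⟨μ.x_mem p, by rw [← map_mul, mul_self_iff.2 hp, map_one], μ.x_t p⟩
  rw [ZZ, this, Subgroup.closure_eq]
  exact exists_congr fun _ => and_congr_right fun _ => eq_comm

theorem x_SS (p : Pt σ) : μ.x p ∈ SS M μ.t := (μ.mem_SS hF).2 ⟨p, rfl⟩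
theorem x_ZZ {p : Pt σ} (h : p.a = 0) : μ.x p ∈ ZZ M μ.t := (μ.mem_ZZ hF).2 ⟨p, h, rfl⟩

omit hF in
theorem w_z {c : K} (hc : σ c = c) (h0 : c ≠ 0) : μ.w * μ.x (z c hc) * μ.w⁻¹ =
    μ.x (z c⁻¹ (by rw [map_inv₀, hc])) * μ.w * (μ.x (z c hc) * μ.h c) :=
  μ.w_x (by simp) (by simp [h0]) (by simp) (by simp [hc])

omit hF in
theorem notB {p : Pt σ}
    (h : Commute (μ.w * μ.x p * μ.w⁻¹ * μ.t * (μ.w * μ.x p * μ.w⁻¹)⁻¹) μ.t) : p = 1 := by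
  by_contra hp
  obtain ⟨p', r, h1, h2, h3, h4⟩ := exists_winv hp
  rw [μ.w_x h1 h2 h3 h4, t, μ.W_conj_z p' r (b_ne hp) rfl, ← t,
    ← conj_eq_of_commute (μ.x_t p'), commute_conj_iff] at h
  exact μ.nc (by simp) (sc_ne (lam_ne (b_ne hp)) t0_ne) h

omit hF in
theorem runiq0 {p : Pt σ} (h : Commute (μ.x p * μ.u * (μ.x p)⁻¹) μ.u) : p = 1 := by
  apply μ.notB
  rw [← commute_conj_iff μ.w⁻¹, u] at h
  have e := μ.w_inv
  generalize μ.w = w at *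
  generalize μ.t = t at *
  have e1 : w⁻¹ * (μ.x p * (w * t * w⁻¹) * (μ.x p)⁻¹) * w⁻¹⁻¹ =
      w⁻¹ * μ.x p * w⁻¹⁻¹ * t * (w⁻¹ * μ.x p * w⁻¹⁻¹)⁻¹ := by group
  have e2 : w⁻¹ * (w * t * w⁻¹) * w⁻¹⁻¹ = t := by group
  rw [e1, e2, e] at h
  exact h

variable [Finite K]

omit hF in
theorem z_conj {r : Pt σ} (hr : r.a = 0) (h1 : r ≠ 1) : ∃ k ∈ M, μ.x r = k * μ.t * k⁻¹ := by
  obtain ⟨s, hs, e⟩ := exists_sqrt (fix_b hr)
  have hs0 : s ≠ 0 := by rintro rfl; exact b_ne h1 (by simpa using e.symm)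
  refine ⟨μ.h s, μ.h_mem hs0, ?_⟩
  rw [t, μ.h_x hs0, lam_fix hs0 hs]
  congr 1
  ext <;> simp [hr, hs, e]

theorem inv_conj {v : G} (hv : v ∈ I M) : ∃ k ∈ M, v = k * μ.t * k⁻¹ := by
  suffices H : ∃ k ∈ M, ∃ r : Pt σ, r.a = 0 ∧ v = k * μ.x r * k⁻¹ by
    obtain ⟨k, hk, r, hr, e⟩ := H
    obtain ⟨k', hk', e'⟩ := μ.z_conj hr (by rintro rfl; exact hv.2.1 (by simpa using e))
    exact ⟨k * k', M.mul_mem hk hk', by rw [e, e']; group⟩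
  rcases μ.bruhat hv.1 with ⟨p, l, hl, e⟩ | ⟨p, s, l, hl, e⟩
  · obtain ⟨r, hr⟩ := μ.memS' hF hv.1 (k := 1) (by rw [pow_one, pow_two, hv.2.2]) (r := t0) rfl
      t0_ne (by rw [e, μ.B_conj_z p hl rfl]; exact μ.x_t _)
    exact ⟨1, M.one_mem, r, mul_self_iff.1 (μ.inj (by rw [map_mul, ← hr, hv.2.2, map_one])),
      by simpa using hr⟩
  · obtain ⟨r, hr⟩ : ∃ r, v = μ.x p * (μ.w * (μ.x r * μ.h l)) * (μ.x p)⁻¹ :=
      ⟨s * sc (lam σ l) p, by rw [e, map_mul, ← μ.h_x hl]; group⟩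
    have hv' := ((Nm.of_mem (M.inv_mem (μ.x_mem p))).I hv).2.2
    rw [show (μ.x p)⁻¹ * v * (μ.x p)⁻¹⁻¹ = μ.w * (μ.x r * μ.h l) by rw [hr]; group] at hv'
    have hσ : (σ l)⁻¹ ≠ 0 := inv_ne_zero ((map_ne_zero σ).2 hl)
    have h0 : μ.w * μ.x r * μ.w⁻¹ * μ.h (σ l)⁻¹ * (μ.x r * μ.h l) = 1 := by
      rw [← μ.w_h hl, ← hv']
      nth_rewrite 4 [← μ.w_inv]
      group
    have h1 : r = 1 := by
      apply μ.notB
      have h2 : μ.w * μ.x r * μ.w⁻¹ = (μ.x r * μ.h l)⁻¹ * (μ.h (σ l)⁻¹)⁻¹ := by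
        rw [← mul_inv_rev, eq_inv_iff_mul_eq_one, ← mul_assoc, h0]
      rw [h2, μ.h_inv hσ, ← commute_conj_iff (μ.x r * μ.h l), t, μ.B_conj_z r hl rfl]
      have h3 := μ.h_x (inv_ne_zero hσ) t0
      have e1 : ∀ a b c : G, a * (a⁻¹ * b * c * (a⁻¹ * b)⁻¹) * a⁻¹ = b * c * b⁻¹ := by
        intro a b c; group
      rw [e1, h3]
      exact μ.x_comm (by simp) _
    rw [h1, map_one, one_mul] at hr
    rw [h1, map_one, mul_one, mul_inv_cancel, one_mul, one_mul, μ.h_mul hσ hl] at h0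
    obtain ⟨m, hm⟩ : ∃ m, m = (σ l)⁻¹ * l := ⟨_, rfl⟩
    rw [← hm] at h0
    have hσ' : σ l ≠ 0 := (map_ne_zero σ).2 hl
    have hm0 : m ≠ 0 := hm ▸ mul_ne_zero hσ hl
    have hm1 : m * σ m = 1 := by
      rw [hm, map_mul, map_inv₀, σσ]; field_simp
    have hm2 : lam σ m = 1 := by
      have := μ.act_B 1 hm0
      rw [h0, map_one, one_mul] at this
      simpa using this.uniq hF (Act.of_comm fun _ => Commute.one_left _) 1
    have hm3 : m ^ 3 = 1 := by have := lam_of_norm hm1; rwa [hm2, one_mul] at this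
    have hc : σ (l * m) = l * m := by
      have h2 : σ l * m = l := by rw [hm]; field_simp
      rw [map_mul]
      apply mul_left_cancel₀ (mul_ne_zero hm0 hm0)
      linear_combination (m * σ m) * h2 + l * hm1 - l * hm3
    have hc0 := mul_ne_zero hl hm0
    rw [← mul_one (μ.h l), ← h0, μ.h_mul hl hm0] at hr
    obtain ⟨c, hce⟩ : ∃ c, c = l * m := ⟨_, rfl⟩
    rw [← hce] at hr hc hc0
    have h4 := μ.w_z hc hc0
    have hc' : σ c⁻¹ = c⁻¹ := by rw [map_inv₀, hc]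
    have h5 : μ.x (z c hc) * μ.h c = μ.h c * μ.x (z c⁻¹ hc') := by
      rw [eq_comm, ← mul_inv_eq_iff_eq_mul, μ.h_x hc0, lam_fix hc0 hc]
      congr 1
      ext
      · simp
      · simp [hc, hc0]
    have h6 : μ.x (z c⁻¹ hc') * μ.x (z c⁻¹ hc') = 1 := by
      rw [← map_mul, mul_self_iff.2 rfl, map_one]
    refine ⟨μ.x p * μ.x (z c⁻¹ hc') * μ.w, M.mul_mem (M.mul_mem (μ.x_mem _) (μ.x_mem _)) μ.w_mem,
      z c hc, rfl, ?_⟩
    calc v = μ.x p * (μ.x (z c⁻¹ hc') * μ.x (z c⁻¹ hc') * μ.w * μ.h c * μ.x (z c⁻¹ hc') *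
          (μ.x (z c⁻¹ hc'))⁻¹) * (μ.x p)⁻¹ := by rw [h6, hr]; group
      _ = μ.x p * μ.x (z c⁻¹ hc') * (μ.w * μ.x (z c hc) * μ.w⁻¹) * (μ.x (z c⁻¹ hc'))⁻¹ *
          (μ.x p)⁻¹ := by rw [h4, h5]; group
      _ = _ := by group

include μ in
theorem exists_mod {v : G} (hv : v ∈ I M) : ∃ μ' : Mod σ M, v = μ'.t := by
  obtain ⟨k, hk, e⟩ := μ.inv_conj hF hv
  exact ⟨μ.conj hk, e⟩

include μ in
theorem trans {a b c : G} (ha : a ∈ I M) (hb : b ∈ I M) (hc : c ∈ I M) (h1 : Commute a b)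
    (h2 : Commute b c) : Commute a c := by
  obtain ⟨μ', rfl⟩ := μ.exists_mod hF hb
  obtain ⟨p, -, rfl⟩ := μ'.memZ0 hF ha.1 ha.2.2 h1
  obtain ⟨r, hr, rfl⟩ := μ'.memZ0 hF hc.1 hc.2.2 h2.symm
  exact μ'.x_comm hr p

omit hF in
theorem wz_u {r : Pt σ} (hr : r.a = 0) : Commute (μ.w * μ.x r * μ.w⁻¹) μ.u :=
  (commute_conj_iff _ _ _).2 (μ.x_t r)

omit hF in
theorem nc_tu : ¬ Commute μ.t μ.u := fun h => μ.nc rfl t0_ne h.symm

theorem rex0 {v : G} (hv : v ∈ I M) (h : ¬ Commute μ.t v) :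
    ∃ p, Commute (μ.x p * μ.u * (μ.x p)⁻¹) v := by
  obtain ⟨k, hk, rfl⟩ := μ.inv_conj hF hv
  rcases μ.bruhat hk with ⟨p, l, hl, rfl⟩ | ⟨p, s, l, hl, rfl⟩
  · rw [t, μ.B_conj_z p hl rfl] at h
    exact absurd (μ.x_t _).symm h
  · refine ⟨p, ?_⟩
    rw [t, μ.W_conj_z p s hl rfl, commute_conj_iff]
    exact (μ.wz_u (by simp)).symm

include μ in
theorem exists_mod2 {v y : G} (hv : v ∈ I M) (hy : y ∈ I M) (h : ¬ Commute v y) :
    ∃ μ' : Mod σ M, v = μ'.t ∧ Commute μ'.u y := by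
  obtain ⟨μ', rfl⟩ := μ.exists_mod hF hv
  obtain ⟨p, hp⟩ := μ'.rex0 hF hy h
  exact ⟨μ'.conj (μ'.x_mem p), (conj_eq_of_commute (μ'.x_t p)).symm, by rwa [conj_u]⟩

end Mod

end Cfsg.Agent.BdU
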