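import Cfsg.Agent.Lib.BdU.Fld
import Cfsg.Agent.Lib.AIC.UM

/-!
# The Sylow `2`-subgroup of `U₃(q)` in coordinates, and its automorphisms
-/

set_option autoImplicit false
set_option linter.unusedSectionVars false

namespace Cfsg.Agent.BdU

open Cfsg.Agent.AIC

variable {K : Type*} [Field K]

/-- The Sylow subgroup. -/
@[ext] structure Pt (σ : K →+* K) where
  /-- first coordinate -/
  a : K
  /-- second coordinate -/
  b : K
  hab : b + σ b = a * σ a

variable {σ : K →+* K} [Invol σ] [CharP K 2]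

theorem two0 (K : Type*) [Field K] [CharP K 2] : (2 : K) = 0 := CharTwo.two_eq_zero

theorem eq_one_of_pow2 {c : K} {k : ℕ} (h : c ^ 2 ^ k = 1) : c = 1 := M.eq_one_of_pow h

namespace Pt

instance instMul : Mul (Pt σ) := ⟨fun p r => ⟨p.a + r.a, p.b + r.b + σ p.a * r.a, by
  simp only [map_mul, map_add, σσ]; linear_combination p.hab + r.hab⟩⟩
instance instOne : One (Pt σ) := ⟨⟨0, 0, by simp⟩⟩
instance instInv : Inv (Pt σ) := ⟨fun p => ⟨p.a, σ p.b, by
  simp only [σσ]; linear_combination p.hab⟩⟩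

@[simp] theorem mul_a (p r : Pt σ) : (p * r).a = p.a + r.a := rfl
@[simp] theorem mul_b (p r : Pt σ) : (p * r).b = p.b + r.b + σ p.a * r.a := rfl
@[simp] theorem one_a : (1 : Pt σ).a = 0 := rfl
@[simp] theorem one_b : (1 : Pt σ).b = 0 := rfl
@[simp] theorem inv_a (p : Pt σ) : p⁻¹.a = p.a := rfl
@[simp] theorem inv_b (p : Pt σ) : p⁻¹.b = σ p.b := rfl

instance instGroup : Group (Pt σ) := Group.ofLeftAxioms
  (fun x y z => by
    ext
    · simp only [mul_a]; ring
    · simp only [mul_a, mul_b, map_add]; ring)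
  (fun x => by ext <;> simp)
  (fun x => by
    ext
    · simp [CharTwo.add_self_eq_zero]
    · simp only [mul_b, inv_a, inv_b, one_b]
      linear_combination x.hab + x.a * σ x.a * two0 K)

/-- Scaling. -/
def sc (l : K) : Pt σ →* Pt σ where
  toFun p := ⟨l * p.a, l * σ l * p.b, by
    simp only [map_mul, σσ]; linear_combination l * σ l * p.hab⟩
  map_one' := by ext <;> simp
  map_mul' p r := by
    ext
    · simp only [mul_a]; ring
    · simp only [mul_a, mul_b, map_mul]; ring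

@[simp] theorem sc_a (l : K) (p : Pt σ) : (sc l p).a = l * p.a := rfl
@[simp] theorem sc_b (l : K) (p : Pt σ) : (sc l p).b = l * σ l * p.b := rfl

/-- Central elements. -/
def z (c : K) (h : σ c = c) : Pt σ := ⟨0, c, by simp [h, CharTwo.add_self_eq_zero]⟩

@[simp] theorem z_a (c : K) (h : σ c = c) : (z c h).a = 0 := rfl
@[simp] theorem z_b (c : K) (h : σ c = c) : (z c h).b = c := rfl

/-- The standard involution. -/
def t0 : Pt σ := z 1 (map_one σ)

@[simp] theorem t0_a : (t0 : Pt σ).a = 0 := rfl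
@[simp] theorem t0_b : (t0 : Pt σ).b = 1 := rfl

theorem t0_ne : (t0 : Pt σ) ≠ 1 := fun e => one_ne_zero (congrArg Pt.b e)

theorem fix_b {p : Pt σ} (h : p.a = 0) : σ p.b = p.b := by
  have := p.hab
  rw [h, zero_mul] at this
  linear_combination this - p.b * two0 K

theorem eq_z {p : Pt σ} (h : p.a = 0) : p = z p.b (fix_b h) := by ext <;> simp [h]

theorem b_ne {p : Pt σ} (h : p ≠ 1) : p.b ≠ 0 := fun e => h (by
  have := p.hab
  rw [e, map_zero, add_zero, eq_comm, mul_eq_zero, map_eq_zero, or_self] at this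
  ext <;> simp [this, e])

theorem mul_self_iff {p : Pt σ} : p * p = 1 ↔ p.a = 0 := by
  constructor
  · intro h
    simpa [CharTwo.add_self_eq_zero] using congrArg Pt.b h
  · intro h
    ext <;> simp [h, CharTwo.add_self_eq_zero]

theorem sq_a (p : Pt σ) : (p * p).a = 0 := by simp [CharTwo.add_self_eq_zero]
theorem sq_b (p : Pt σ) : (p * p).b = σ p.a * p.a := by simp [CharTwo.add_self_eq_zero]

theorem pow_four (p : Pt σ) : p ^ 4 = 1 := by
  rw [show p ^ 4 = p * p * (p * p) by simp [pow_succ, mul_assoc], mul_self_iff, sq_a]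

theorem commute_of_a {p : Pt σ} (h : p.a = 0) (r : Pt σ) : Commute r p := by
  change r * p = p * r
  ext <;> simp [h, add_comm]

theorem conj_a (r p : Pt σ) : (r * p * r⁻¹).a = p.a := by
  simp only [mul_a, inv_a]; linear_combination r.a * two0 K

theorem conj_b (r p : Pt σ) : (r * p * r⁻¹).b = p.b + (σ r.a * p.a + r.a * σ p.a) := by
  simp only [mul_a, mul_b, inv_a, inv_b, map_add]
  linear_combination r.hab + r.a * σ r.a * two0 K

variable {q : ℕ}

theorem exists_a (hF : FD σ q) (a : K) : ∃ p : Pt σ, p.a = a := by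
  obtain ⟨ω, hω⟩ := hF.tr
  exact ⟨⟨a, ω * (a * σ a), by
    simp only [map_mul, σσ]; linear_combination a * σ a * hω⟩, rfl⟩

theorem card (hF : FD σ q) : Nat.card (Pt σ) = q ^ 3 := by
  obtain ⟨ω, hω⟩ := hF.tr
  have h2 := two0 K
  rw [pow_succ, ← hF.card]
  nth_rewrite 1 [← hF.cardF]
  rw [← Nat.card_prod]
  exact Nat.card_congr
    { toFun := fun x => ⟨x.a, x.b + ω * (x.a * σ x.a), by
        simp only [map_add, map_mul, σσ]
        linear_combination x.hab + x.a * σ x.a * hω +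
          (x.a * σ x.a - x.b - ω * (x.a * σ x.a)) * h2⟩
      invFun := fun y => ⟨y.1, y.2.1 + ω * (y.1 * σ y.1), by
        simp only [map_add, map_mul, σσ, y.2.2]
        linear_combination y.1 * σ y.1 * hω + y.2.1 * h2⟩
      left_inv := fun x => by ext <;> simp [add_assoc, CharTwo.add_self_eq_zero]
      right_inv := fun y => by ext <;> simp [add_assoc, CharTwo.add_self_eq_zero] }

theorem ncard_sq (hF : FD σ q) [Finite K] : {p : Pt σ | p * p = t0}.ncard ≤ q * (q + 1) := by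
  obtain ⟨ω, hω⟩ := hF.tr
  have h2 := two0 K
  rw [← Nat.card_coe_set_eq, ← hF.cardN]
  nth_rewrite 1 [← hF.cardF]
  rw [← Nat.card_prod]
  have key : ∀ p : {p : Pt σ | p * p = t0}, p.1.a * σ p.1.a = 1 := fun p => by
    have := congrArg Pt.b p.2
    rwa [sq_b, mul_comm] at this
  refine Nat.card_le_card_of_injective (fun p => (⟨p.1.b + ω, by
    rw [map_add]
    linear_combination p.1.hab + hω + key p + (1 - p.1.b - ω) * h2⟩, ⟨p.1.a, key p⟩))
    fun p r e => ?_
  simp only [Prod.mk.injEq, Subtype.mk.injEq, add_left_inj] at e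
  exact Subtype.ext (Pt.ext e.2 e.1)

end Pt

variable {q : ℕ}

omit [Invol σ] [CharP K 2] in
theorem map_σ (hF : FD σ q) (φ : K ≃+* K) (a : K) : φ (σ a) = σ (φ a) := by
  rw [hF.pow, hF.pow, map_pow]

omit [CharP K 2] in
/-- `σ` as an automorphism. -/
def σe (σ : K →+* K) [Invol σ] : K ≃+* K :=
  { σ with invFun := σ, left_inv := σσ σ, right_inv := σσ σ }

@[simp] theorem σe_apply (a : K) : σe σ a = σ a := rfl

theorem σe_ne (hF : FD σ q) : σe σ ≠ 1 := fun e => by
  obtain ⟨ω, hω⟩ := hF.tr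
  have : σ ω = ω := congrArg (fun f : K ≃+* K => f ω) e
  rw [this, CharTwo.add_self_eq_zero] at hω
  exact zero_ne_one hω

theorem eq_one_or_σ [Finite K] (hF : FD σ q) {φ : K ≃+* K} (h : φ * φ = 1) :
    φ = 1 ∨ φ = σe σ := by
  by_cases h1 : φ = 1
  · exact Or.inl h1
  · exact Or.inr (aut_invol_eq h (RingEquiv.ext (σσ σ)) h1 (σe_ne hF))

theorem eq_one_or_σ_of_fix [Finite K] (hF : FD σ q) {φ : K ≃+* K}
    (h : ∀ c, σ c = c → φ c = c) : φ = 1 ∨ φ = σe σ := by
  refine eq_one_or_σ hF (RingEquiv.ext fun a => ?_)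
  show φ (φ a) = a
  have h1 := h (a + σ a) (by simp [add_comm])
  have h2 := h (a * σ a) (by simp [mul_comm])
  rw [map_add] at h1
  rw [map_mul] at h2
  have h3 : (φ a - a) * (φ a - σ a) = 0 := by linear_combination φ a * h1 - h2
  rcases mul_eq_zero.1 h3 with h4 | h4
  · rw [sub_eq_zero.1 h4, sub_eq_zero.1 h4]
  · rw [sub_eq_zero.1 h4, map_σ hF, sub_eq_zero.1 h4, σσ]

theorem exists_sqrt [Finite K] {c : K} (hc : σ c = c) : ∃ s, σ s = s ∧ s * s = c := by
  obtain ⟨s, hs⟩ := (Finite.injective_iff_surjective.1 (frobenius K 2).injective) c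
  rw [frobenius_def, pow_two] at hs
  refine ⟨s, (frobenius K 2).injective ?_, hs⟩
  rw [frobenius_def, frobenius_def, pow_two, pow_two, ← map_mul, hs, hc]

theorem exists_norm_one (hF : FD σ q) [Finite K] (hq : 4 ≤ q) :
    ∃ l : K, l * σ l = 1 ∧ l ^ 3 ≠ 1 := by
  classical
  by_contra hc
  push Not at hc
  have h1 : Nat.card {x : K // x * σ x = 1} ≤ Nat.card (Polynomial.nthRootsFinset 3 (1 : K)) :=
    Nat.card_le_card_of_injective (fun x => ⟨x.1, (Polynomial.mem_nthRootsFinset (by norm_num) 1).2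
      (hc _ x.2)⟩) fun a b e => Subtype.ext (by simpa using e)
  rw [hF.cardN, Nat.card_eq_fintype_card, Fintype.card_coe] at h1
  have h2 := (Multiset.toFinset_card_le _).trans (Polynomial.card_nthRoots 3 (1 : K))
  rw [← Polynomial.nthRootsFinset_def] at h2
  omega

/-- Automorphisms of the Sylow subgroup act semilinearly. -/
theorem aut_semilinear [Finite K] (hF : FD σ q) (α : Pt σ →* Pt σ) (hα : Function.Injective α) :
    ∃ e : K, e ≠ 0 ∧ ∃ φ : K ≃+* K, (∀ p, (α p).a = e * φ p.a) ∧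
      ∀ p, p.a = 0 → (α p).b = e * σ e * φ p.b := by
  classical
  obtain ⟨ω, hω⟩ := hF.tr
  have h2 := two0 K
  have z0 : ∀ p, (α p).a = 0 ↔ p.a = 0 := fun p => by
    rw [← Pt.mul_self_iff, ← Pt.mul_self_iff, ← map_mul, map_eq_one_iff α hα]
  choose L hL using Pt.exists_a hF
  obtain ⟨f, hf⟩ : ∃ f : K → K, ∀ p, (α p).a = f p.a := by
    refine ⟨fun a => (α (L a)).a, fun p => ?_⟩
    have h1 := (z0 ((L p.a)⁻¹ * p)).2 (by simp [hL, CharTwo.add_self_eq_zero])
    rw [map_mul, map_inv, Pt.mul_a, Pt.inv_a] at h1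
    linear_combination h1 - (α (L p.a)).a * h2
  obtain ⟨g, hg⟩ : ∃ g : K → K, ∀ p, p.a = 0 → (α p).b = g p.b := by
    refine ⟨fun c => if h : σ c = c then (α (Pt.z c h)).b else 0, fun p hp => ?_⟩
    simp only [dif_pos (Pt.fix_b hp)]
    rw [← Pt.eq_z hp]
  have fadd : ∀ a c, f (a + c) = f a + f c := fun a c => by
    have := hf (L a * L c)
    rw [map_mul, Pt.mul_a, hf, hf, Pt.mul_a, hL, hL] at this
    exact this.symm
  have f0 : ∀ a, f a = 0 ↔ a = 0 := fun a => by rw [← hL a, ← hf, z0]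
  have gN : ∀ a, σ (f a) * f a = g (σ a * a) := fun a => by
    have := hg _ (Pt.sq_a (L a))
    rwa [map_mul, Pt.sq_b, Pt.sq_b, hf, hL] at this
  have gT : ∀ a c, σ (f a) * f c + f a * σ (f c) = g (σ a * c + a * σ c) := fun a c => by
    have h1 : (L a * L c * (L a)⁻¹ * (L c)⁻¹).a = 0 := by
      rw [Pt.mul_a, Pt.conj_a, Pt.inv_a, CharTwo.add_self_eq_zero]
    have h3 : ∀ p r : Pt σ, (p * r * p⁻¹ * r⁻¹).b = σ p.a * r.a + p.a * σ r.a := fun p r => by
      rw [Pt.mul_b, Pt.conj_a, Pt.conj_b, Pt.inv_a, Pt.inv_b]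
      linear_combination r.hab + r.a * σ r.a * h2
    have := hg _ h1
    rwa [map_mul, map_mul, map_mul, map_inv, map_inv, h3, h3, hf, hf, hL, hL] at this
  have g0 : ∀ c, σ c = c → (g c = 0 ↔ c = 0) := fun c hc => by
    have h1 := hg (Pt.z c hc) rfl
    rw [Pt.z_b] at h1
    constructor
    · intro e
      have : α (Pt.z c hc) = 1 := Pt.ext ((z0 _).2 rfl) (h1.trans e)
      exact congrArg Pt.b ((map_eq_one_iff α hα).1 this)
    · rintro rfl
      rw [← h1, show Pt.z 0 hc = 1 from rfl, map_one, Pt.one_b]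
  have he : f 1 ≠ 0 := fun e => one_ne_zero ((f0 1).1 e)
  have tau : ∀ t a, σ t = t → a ≠ 0 → ∃ τ, σ τ = τ ∧ f (t * a) = τ * f a := by
    intro t a ht ha
    have h1 := gT a (t * a)
    rw [map_mul, ht, show σ a * (t * a) + a * (t * σ a) = 0 by linear_combination t * a * σ a * h2,
      (g0 0 (map_zero σ)).2 rfl] at h1
    have h3 : f a ≠ 0 := fun e => ha ((f0 a).1 e)
    have h4 : σ (f a) ≠ 0 := (map_ne_zero σ).2 h3
    refine ⟨f (t * a) / f a, ?_, by field_simp⟩
    rw [map_div₀]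
    field_simp
    linear_combination h1 - σ (f a) * f (t * a) * h2
  have tau2 : ∀ t a c τ τ', σ t = t → σ τ = τ → σ τ' = τ' → f (t * a) = τ * f a →
      f (t * c) = τ' * f c → σ a * c + a * σ c ≠ 0 → τ = τ' := by
    intro t a c τ τ' ht h1 h1' h3 h3' h4
    have h5 := gT (t * a) c
    have h6 := gT a (t * c)
    rw [h3, map_mul, h1, map_mul, ht] at h5
    rw [h3', map_mul, h1', map_mul, ht] at h6
    have h7 : σ (f a) * f c + f a * σ (f c) ≠ 0 := by
      rw [gT]; exact fun e => h4 ((g0 _ (by simp [add_comm, mul_comm])).1 e)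
    rw [show t * σ a * c + t * a * σ c = σ a * (t * c) + a * (t * σ c) by ring, ← h6] at h5
    exact mul_right_cancel₀ h7 (by linear_combination h5)
  have hω0 : ω ≠ 0 := by rintro rfl; simp at hω
  have flin : ∀ t a, σ t = t → f (t * a) * f 1 = f t * f a ∧ σ (f t / f 1) = f t / f 1 := by
    intro t a ht
    obtain ⟨τ1, k1, k1'⟩ := tau t 1 ht one_ne_zero
    have e1 : f t / f 1 = τ1 := by rw [mul_one] at k1'; rw [k1']; field_simp
    refine ⟨?_, by rw [e1, k1]⟩
    by_cases ha : a = 0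
    · rw [ha, mul_zero, (f0 0).2 rfl]; ring
    obtain ⟨τ, k, k'⟩ := tau t a ht ha
    have e2 : τ = τ1 := by
      by_cases h3 : σ a * 1 + a * σ 1 = 0
      · obtain ⟨τ2, k2, k2'⟩ := tau t ω ht hω0
        have h4 : σ a = a := by rw [map_one] at h3; linear_combination h3 - a * h2
        refine (tau2 t a ω τ τ2 ht k k2 k' k2' ?_).trans (tau2 t ω 1 τ2 τ1 ht k2 k1 k2' k1' ?_)
        · rw [h4, ← mul_add, hω, mul_one]; exact ha
        · rw [map_one, mul_one, mul_one, add_comm, hω]; exact one_ne_zero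
      · exact tau2 t a 1 τ τ1 ht k k1 k' k1' h3
    rw [mul_one] at k1'
    rw [k', k1', e2]; ring
  obtain ⟨φ, hφ⟩ : ∃ φ : K → K, ∀ a, f a = f 1 * φ a := ⟨fun a => f a / f 1, fun a => by
    field_simp⟩
  obtain ⟨e, he'⟩ : ∃ e, e = f 1 := ⟨_, rfl⟩
  rw [← he'] at he hφ flin
  have hσe : σ e ≠ 0 := (map_ne_zero σ).2 he
  have φ1 : φ 1 = 1 := mul_left_cancel₀ he (by rw [← hφ, ← he', mul_one])
  have φadd : ∀ a c, φ (a + c) = φ a + φ c := fun a c =>
    mul_left_cancel₀ he (by rw [mul_add, ← hφ, ← hφ, ← hφ, fadd])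
  have φlin : ∀ t a, σ t = t → φ (t * a) = φ t * φ a := fun t a ht => by
    have := (flin t a ht).1
    rw [hφ, hφ t, hφ a] at this
    exact mul_left_cancel₀ (mul_ne_zero he he) (by linear_combination this)
  have φfix : ∀ t, σ t = t → σ (φ t) = φ t := fun t ht => by
    have := (flin t 0 ht).2
    rwa [hφ, mul_div_cancel_left₀ _ he] at this
  have g1 : g 1 = σ e * e := by simpa [← he'] using (gN 1).symm
  have gφ : ∀ s, σ s = s → g s = e * σ e * φ s := fun s hs => by
    have h1 := gT 1 (s * ω)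
    have h3 := gT 1 ω
    rw [map_one, one_mul, one_mul, map_mul, hs, ← mul_add, hω, mul_one, hφ (s * ω), φlin s ω hs,
      map_mul, map_mul, φfix s hs, ← he'] at h1
    rw [map_one, one_mul, one_mul, hω, g1, hφ ω, map_mul, ← he'] at h3
    linear_combination φ s * h3 - h1
  have φω : φ (ω * ω) = φ ω * φ ω := by
    have h1 := gN ω
    have h3 := gT 1 ω
    rw [gφ _ (by simp [mul_comm]), hφ, map_mul] at h1
    rw [map_one, one_mul, one_mul, hω, g1, hφ ω, map_mul, ← he'] at h3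
    have h4 : φ (σ ω * ω) = σ (φ ω) * φ ω :=
      mul_left_cancel₀ (mul_ne_zero he hσe) (by linear_combination -h1)
    have h5 : φ ω + σ (φ ω) = 1 :=
      mul_left_cancel₀ (mul_ne_zero he hσe) (by linear_combination h3)
    rw [show ω * ω = ω + σ ω * ω by linear_combination ω * hω - ω * σ ω * h2, φadd, h4]
    linear_combination -φ ω * h5 + φ ω * σ (φ ω) * h2
  have dec : ∀ a : K, ∃ s t, σ s = s ∧ σ t = t ∧ a = s + t * ω := fun a =>
    ⟨a + (a + σ a) * ω, a + σ a, by
      simp only [map_add, map_mul, σσ]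
      linear_combination (a + σ a) * hω + (σ a - (a + σ a) * ω) * h2, by simp [add_comm], by
      linear_combination -(a + σ a) * ω * h2⟩
  have φmul : ∀ a c, φ (a * c) = φ a * φ c := fun a c => by
    obtain ⟨s, t, hs, ht, rfl⟩ := dec a
    have : φ (ω * c) = φ ω * φ c := by
      obtain ⟨s', t', hs', ht', rfl⟩ := dec c
      rw [show ω * (s' + t' * ω) = s' * ω + t' * (ω * ω) by ring, φadd, φadd, φlin _ _ hs',
        φlin _ _ ht', φlin _ _ ht', φω]
      ring
    rw [add_mul, mul_assoc, φadd, φadd, φlin _ _ hs, φlin _ _ ht, φlin _ _ ht, this]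
    ring
  have φ0 : φ 0 = 0 := (mul_eq_zero.1 ((hφ 0).symm.trans ((f0 0).2 rfl))).resolve_left he
  let Φ : K →+* K := ⟨⟨⟨φ, φ1⟩, φmul⟩, φ0, φadd⟩
  refine ⟨e, he, RingEquiv.ofBijective Φ (Finite.injective_iff_bijective.1 Φ.injective),
    fun p => by rw [hf, hφ]; rfl, fun p hp => by rw [hg p hp, gφ _ (Pt.fix_b hp)]; rfl⟩

end Cfsg.Agent.BdU
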